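import Cfsg.Agent.Lib.Pnm.Defs

namespace H63.Pnm
open Pointwise

namespace AG

variable {Ω : Type*}

/-- A Steiner quadruple system given as a relation. -/
structure Sq (R : Ω → Ω → Ω → Ω → Prop) : Prop where
  ex : ∀ x y z, [x, y, z].Nodup → ∃ w, R x y z w
  un : ∀ x y z w w', R x y z w → R x y z w' → w = w'
  nd : ∀ x y z w, R x y z w → [x, y, z, w].Nodup
  s1 : ∀ x y z w, R x y z w → R y x z w
  s2 : ∀ x y z w, R x y z w → R x z y w
  s3 : ∀ x y z w, R x y z w → R x y w z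

variable {R : Ω → Ω → Ω → Ω → Prop}

theorem Sq.card_le [Finite Ω] (h : Sq R) {a y : Ω} (hay : a ≠ y) {A B : Set Ω}
    (hA : ∀ b ∈ A, b ≠ a ∧ b ≠ y) (hAB : ∀ b ∈ A, ∀ w, R a y b w → w ∈ B) :
    ∃ f : Ω → Ω, (∀ b ∈ A, R a y b (f b)) ∧ (∀ b ∈ A, f b ∈ B) ∧ Set.InjOn f A := by
  have : ∀ b, ∃ w, b ∈ A → R a y b w := fun b => by
    by_cases hb : b ∈ A
    · obtain ⟨w, hw⟩ := h.ex a y b (by simp [hay, (hA b hb).1.symm, (hA b hb).2.symm])
      exact ⟨w, fun _ => hw⟩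
    · exact ⟨b, fun h => absurd h hb⟩
  choose f hf using this
  exact ⟨f, hf, fun b hb => hAB b hb _ (hf b hb), fun b hb b' hb' e =>
    h.un a y (f b) b b' (h.s3 _ _ _ _ (hf b hb)) (e ▸ h.s3 _ _ _ _ (hf b' hb'))⟩

/-- Every quadruple meets `B` evenly. -/
def Ev (R : Ω → Ω → Ω → Ω → Prop) (B : Set Ω) : Prop :=
  ∀ x y z w, R x y z w → ((x ∈ B ↔ y ∈ B) ↔ (z ∈ B ↔ w ∈ B))

theorem Sq.ev [Finite Ω] (h : Sq R) {B : Set Ω} (hc : B.ncard = Bᶜ.ncard)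
    (h3 : ∀ x y z w, R x y z w → x ∈ B → y ∈ B → z ∈ B → w ∈ B) : Ev R B := by
  have k1 : ∀ a y b w, R a y b w → a ∈ B → y ∉ B → b ∈ B → w ∉ B := fun a y b w r ha hy hb hw =>
    hy (h3 _ _ _ _ (h.s3 _ _ _ _ (h.s2 _ _ _ _ r)) ha hb hw)
  have k2 : ∀ a y z w, R a y z w → a ∈ B → y ∉ B → z ∉ B → w ∈ B := by
    intro a y z w r ha hy hz
    have hay : a ≠ y := fun e => hy (e ▸ ha)
    obtain ⟨f, f1, f2, f3⟩ := h.card_le hay (A := B \ {a}) (B := Bᶜ \ {y})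
      (fun b hb => ⟨hb.2, fun e => hy (e ▸ hb.1)⟩) (fun b hb w r => ⟨k1 _ _ _ _ r ha hy hb.1,
        fun e => by have := h.nd _ _ _ _ r; simp [Set.mem_singleton_iff.1 e] at this⟩)
    have hzy : z ≠ y := fun e => by have := h.nd _ _ _ _ r; simp [e] at this
    obtain ⟨b, hb, e⟩ := Set.surj_on_of_inj_on_of_ncard_le (s := B \ {a}) (t := Bᶜ \ {y})
      (fun b _ => f b) f2 (fun b b' hb hb' e => f3 hb hb' e)
      (by rw [Set.ncard_sdiff_singleton_of_mem ha,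
        Set.ncard_sdiff_singleton_of_mem (show y ∈ Bᶜ from hy), hc]) (Set.toFinite _) z ⟨hz, hzy⟩
    have := h.s3 _ _ _ _ (f1 b hb)
    rw [← e] at this
    rw [h.un _ _ _ _ _ r this]
    exact hb.1
  intro x y z w r
  have r1 := h.s1 _ _ _ _ r
  have r2 := h.s1 _ _ _ _ (h.s2 _ _ _ _ r)
  have r3 := h.s1 _ _ _ _ (h.s2 _ _ _ _ (h.s3 _ _ _ _ r))
  have a1 := h3 _ _ _ _ r
  have a2 := k1 _ _ _ _ r
  have a3 := k1 _ _ _ _ r1
  have a4 := k1 _ _ _ _ (h.s2 _ _ _ _ r)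
  have a5 := k2 _ _ _ _ r
  have a6 := k2 _ _ _ _ r1
  have a7 := k2 _ _ _ _ r2
  have a8 := k2 _ _ _ _ r3
  by_cases hx : x ∈ B <;> by_cases hy : y ∈ B <;> by_cases hz : z ∈ B <;> by_cases hw : w ∈ B <;>
    simp_all

theorem Sq.half [Finite Ω] (h : Sq R) {D : Set Ω} (hD : Ev R D) {a y : Ω} (ha : a ∈ D)
    (hy : y ∉ D) : D.ncard = Dᶜ.ncard := by
  have hay : a ≠ y := fun e => hy (e ▸ ha)
  obtain ⟨f, -, f2, f3⟩ := h.card_le hay (A := D \ {a}) (B := Dᶜ \ {y})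
    (fun b hb => ⟨hb.2, fun e => hy (e ▸ hb.1)⟩) (fun b hb w r => ⟨by
      have := hD _ _ _ _ r
      have := hb.1
      simp_all, fun e => by have := h.nd _ _ _ _ r; simp [Set.mem_singleton_iff.1 e] at this⟩)
  obtain ⟨g, -, g2, g3⟩ := h.card_le hay (A := Dᶜ \ {y}) (B := D \ {a})
    (fun b hb => ⟨fun e => hb.1 (e ▸ ha), hb.2⟩) (fun b hb w r => ⟨by
      have := hD _ _ _ _ r
      have : b ∉ D := hb.1
      simp_all, fun e => by have := h.nd _ _ _ _ r; simp [Set.mem_singleton_iff.1 e] at this⟩)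
  have h1 := Set.ncard_le_ncard_of_injOn f f2 f3 (Set.toFinite _)
  have h2 := Set.ncard_le_ncard_of_injOn g g2 g3 (Set.toFinite _)
  have h3 := Set.ncard_sdiff_singleton_add_one ha (Set.toFinite D)
  have h4 := Set.ncard_sdiff_singleton_add_one (show y ∈ Dᶜ from hy) (Set.toFinite _)
  omega

theorem xor8 (a b c d e f g h : Prop) (h1 : (a ↔ b) ↔ (c ↔ d)) (h2 : (e ↔ f) ↔ (g ↔ h)) :
    ((a ∧ ¬e ∨ e ∧ ¬a) ↔ (b ∧ ¬f ∨ f ∧ ¬b)) ↔ ((c ∧ ¬g ∨ g ∧ ¬c) ↔ (d ∧ ¬h ∨ h ∧ ¬d)) := by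
  grind

end AG

theorem ag_case {G Ω : Type*} [Group G] [Finite G] [MulAction G Ω] [Finite Ω] {F : Set Ω}
    (hT : Tr (⊤ : Subgroup G) (Set.univ : Set Ω)) (hn : Nat.card Ω = 2 * F.ncard)
    (hF : F.Nonempty) (hc : ∀ g : G, g • F ≠ Fᶜ)
    (h4 : ∀ x y z : Ω, [x, y, z].Nodup → ∃! w : Ω, w ∉ [x, y, z] ∧
      ∀ g : G, x ∈ g • F → y ∈ g • F → z ∈ g • F → w ∈ g • F) : False := by
  let R : Ω → Ω → Ω → Ω → Prop := fun x y z w => [x, y, z].Nodup ∧ w ∉ [x, y, z] ∧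
    ∀ g : G, x ∈ g • F → y ∈ g • F → z ∈ g • F → w ∈ g • F
  have un : ∀ x y z w w', R x y z w → R x y z w' → w = w' := fun x y z w w' r r' =>
    (h4 x y z r.1).unique r.2 r'.2
  have hR : AG.Sq R := by
    refine ⟨fun x y z h => (h4 x y z h).exists.imp fun w hw => ⟨h, hw⟩, un, ?_, ?_, ?_, ?_⟩
    · rintro x y z w ⟨h1, h2, -⟩
      simp only [List.nodup_cons, List.mem_cons, List.not_mem_nil, or_false, not_or,
        not_false_eq_true, List.nodup_nil, and_true] at h1 h2 ⊢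
      exact ⟨⟨h1.1.1, h1.1.2, Ne.symm h2.1⟩, ⟨h1.2, Ne.symm h2.2.1⟩, Ne.symm h2.2.2⟩
    · rintro x y z w ⟨h1, h2, h3⟩
      refine ⟨?_, ?_, fun g a b c => h3 g b a c⟩
      · exact (List.Perm.swap x y [z]).nodup_iff.2 h1
      · exact fun h => h2 ((List.Perm.swap x y [z]).mem_iff.1 h)
    · rintro x y z w ⟨h1, h2, h3⟩
      refine ⟨?_, ?_, fun g a b c => h3 g a c b⟩
      · exact ((List.Perm.swap y z []).cons x).nodup_iff.2 h1
      · exact fun h => h2 (((List.Perm.swap y z []).cons x).mem_iff.1 h)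
    · rintro x y z w ⟨h1, h2, h3⟩
      have h5 : [x, y, w].Nodup := by
        simp only [List.nodup_cons, List.mem_cons, List.not_mem_nil, or_false, not_or,
          not_false_eq_true, List.nodup_nil, and_true] at h1 h2 ⊢
        exact ⟨⟨h1.1.1, Ne.symm h2.1⟩, Ne.symm h2.2.1⟩
      obtain ⟨v, ⟨v1, v2⟩, -⟩ := h4 x y w h5
      by_cases hv : v = z
      · exact ⟨h5, hv ▸ v1, hv ▸ v2⟩
      · have := un x y z w v ⟨h1, h2, h3⟩ ⟨h1, by
          simp only [List.mem_cons, List.not_mem_nil, or_false, not_or] at v1 ⊢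
          exact ⟨v1.1, v1.2.1, hv⟩, fun g a b c => v2 g a b (h3 g a b c)⟩
        exact absurd (by simp [this]) v1
  have ev : ∀ g : G, AG.Ev R (g • F) := fun g => by
    refine hR.ev ?_ fun x y z w r => r.2.2 g
    have := Set.ncard_add_ncard_compl (g • F) (Set.toFinite _) (Set.toFinite _)
    rw [ncard_smul] at this ⊢
    omega
  have f0 : 0 < F.ncard := (Set.ncard_pos (Set.toFinite F)).2 hF
  obtain ⟨g, -, hg⟩ := hT.exists_lt Set.finite_univ (Set.subset_univ F) (Set.subset_univ F) (by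
    rw [Set.inter_self, Set.ncard_univ, hn]
    nlinarith)
  rw [Set.ncard_univ, hn, mul_assoc, mul_left_comm] at hg
  have hg' := Nat.lt_of_mul_lt_mul_left hg
  have h1 := Set.ncard_inter_add_ncard_sdiff_eq_ncard F (g • F) (Set.toFinite _)
  have h2 := Set.ncard_inter_add_ncard_sdiff_eq_ncard (g • F) F (Set.toFinite _)
  rw [Set.inter_comm, ncard_smul] at h2
  have h3 := Set.ncard_union_eq (s := F \ g • F) (t := g • F \ F)
    (Set.disjoint_left.2 fun x hx hx' => hx'.2 hx.1) (Set.toFinite _) (Set.toFinite _)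
  have evD : AG.Ev R (F \ g • F ∪ g • F \ F) := fun x y z w r => by
    have a := ev 1 x y z w r
    have b := ev g x y z w r
    rw [one_smul] at a
    exact AG.xor8 _ _ _ _ _ _ _ _ a b
  obtain ⟨a, ha⟩ : (F \ g • F ∪ g • F \ F).Nonempty :=
    (Set.ncard_pos (Set.toFinite _)).1 (by omega)
  obtain ⟨y, hy⟩ : ∃ y, y ∉ F \ g • F ∪ g • F \ F := by
    by_contra h5
    refine hc g (Set.ext fun x => ?_)
    have := not_not.1 (not_exists.1 h5 x)
    simp only [Set.mem_union, Set.mem_sdiff, Set.mem_compl_iff] at this ⊢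
    tauto
  have h5 := hR.half evD ha hy
  have h6 := Set.ncard_add_ncard_compl (F \ g • F ∪ g • F \ F) (Set.toFinite _) (Set.toFinite _)
  omega

end H63.Pnm
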