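import Cfsg.Agent.Lib.Pnm.Defs

namespace H63.Pnm
open Pointwise

namespace ALL

variable {G Ω : Type*} [Group G] [MulAction G Ω] {H : Subgroup G} {α β x y : Ω} {h : G}

/-- `(x, y)` lies in the orbital of `(α, β)`. -/
def col (H : Subgroup G) (α β x y : Ω) : Prop := ∃ h ∈ H, h • α = x ∧ h • β = y

theorem col.smul (c : col H α β x y) (hh : h ∈ H) : col H α β (h • x) (h • y) := by
  obtain ⟨g, hg, rfl, rfl⟩ := c
  exact ⟨h * g, mul_mem hh hg, mul_smul _ _ _, mul_smul _ _ _⟩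

theorem col_iff (hh : h ∈ H) : col H α β (h • x) (h • y) ↔ col H α β x y :=
  ⟨fun c => by simpa using c.smul (inv_mem hh), fun c => c.smul hh⟩

theorem out_eq (hh : h ∈ H) : {y | col H α β (h • x) y} = h • {y | col H α β x y} := by
  ext y
  rw [mem_smul]
  exact ⟨fun c => by simpa using col.smul c (inv_mem hh), fun c => by simpa using col.smul c hh⟩

theorem in_eq (hh : h ∈ H) : {x | col H α β x (h • y)} = h • {x | col H α β x y} := by
  ext x
  rw [mem_smul]
  exact ⟨fun c => by simpa using col.smul c (inv_mem hh), fun c => by simpa using col.smul c hh⟩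

theorem col.ne (c : col H α β x y) (hn : β ≠ α) : y ≠ x := by
  obtain ⟨g, -, rfl, rfl⟩ := c
  exact fun e => hn (smul_left_cancel g e)

end ALL

open ALL in
theorem all_one {G Ω : Type*} [Group G] [Finite G] [MulAction G Ω] {K H : Subgroup G} {O F : Set Ω}
    (hB : Blk K F) (hK : K ≤ H) (hO : O.Finite) (hT : Tr H O) (h2 : 2 ≤ O.ncard) {α : Ω}
    (hα : α ∈ O) (hαF : α ∈ F)
    (hs : ∀ β ∈ O, β ≠ α → ∀ D : Set Ω, D = {y | ∃ h ∈ H, h • α = α ∧ h • β = y} →
      3 ≤ D.ncard ∧ D.ncard = 2 * (D ∩ F).ncard + 1 ∧ Tk (H ⊓ MulAction.stabilizer G α) D 2) :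
    O.ncard = 2 * (O ∩ F).ncard ∨ 2 * (O ∩ F).ncard + 4 ≤ O.ncard := by
  have mem : ∀ {β x y}, β ∈ O → col H α β x y → x ∈ O ∧ y ∈ O := by
    rintro β _ _ hβ ⟨g, hg, rfl, rfl⟩
    exact ⟨hT.1 g hg _ hα, hT.1 g hg _ hβ⟩
  have out : ∀ β, ∀ x ∈ O, {y | col H α β x y}.ncard = {y | col H α β α y}.ncard := by
    intro β x hx
    obtain ⟨g, hg, rfl⟩ := hT.2 α hα x hx
    rw [out_eq hg, ncard_smul]
  obtain ⟨β, ⟨hβ, hβα⟩, hmax⟩ := Set.exists_max_image (O \ {α})
    (fun β => {y | col H α β α y}.ncard) (hO.subset Set.sdiff_subset) (by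
      obtain ⟨b, hb, hb'⟩ := Set.exists_ne_of_one_lt_ncard (s := O) (by omega) α
      exact ⟨b, hb, hb'⟩)
  obtain ⟨a3, -, aT⟩ := hs β hβ hβα {y | col H α β α y} rfl
  obtain ⟨a, ha⟩ : ∃ a, {y | col H α β α y}.ncard = a := ⟨_, rfl⟩
  have fo : ∀ {β}, β ∈ O → ∀ x, {y | col H α β x y}.Finite := fun hβ x =>
    hO.subset fun y hy => (mem hβ hy).2
  have fi : ∀ y, {x | col H α β x y}.Finite := fun y => hO.subset fun x hx => (mem hβ hx).1
  obtain ⟨y1, hy1, y2, hy2, hne⟩ := (Set.one_lt_ncard (fo hβ α)).1 (by omega)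
  obtain ⟨h0, hh0, e0⟩ := hT.2 α hα y1 (mem hβ hy1).2
  obtain ⟨β', e1⟩ : ∃ β', h0 • β' = y2 := ⟨h0⁻¹ • y2, smul_inv_smul _ _⟩
  have hβ' : β' ∈ O := by
    rw [← inv_smul_smul h0 β', e1]
    exact hT.1 _ (inv_mem hh0) _ (mem hβ hy2).2
  have hβα' : β' ≠ α := fun e => hne (by rw [← e0, ← e1, e])
  have k1 : ∀ γ y y', col H α β γ y → col H α β γ y' → y ≠ y' → col H α β' y y' := by
    rintro _ _ y' ⟨g, hg, rfl, rfl⟩ c hn
    have c' : col H α β α (g⁻¹ • y') := by simpa using c.smul (inv_mem hg)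
    obtain ⟨k, hk, e2, e3⟩ := aT.two hy1 hy2 (show col H α β α β from ⟨1, one_mem _, by simp⟩) c'
      hne (fun e => hn (by rw [e, smul_inv_smul]))
    exact ⟨g * k * h0, mul_mem (mul_mem hg hk.1) hh0, by rw [mul_smul, mul_smul, e0, e2],
      by rw [mul_smul, mul_smul, e1, e3, smul_inv_smul]⟩
  have k0 : ∀ x y, col H α β' x y → ∃ m ∈ H, m • y1 = x ∧ m • y2 = y := by
    rintro _ _ ⟨g, hg, rfl, rfl⟩
    exact ⟨g * h0⁻¹, mul_mem hg (inv_mem hh0), by rw [← e0, mul_smul, inv_smul_smul],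
      by rw [← e1, mul_smul, inv_smul_smul]⟩
  have sym : ∀ x y, col H α β' x y → col H α β' y x := by
    intro x y c
    obtain ⟨m, hm, rfl, rfl⟩ := k0 x y c
    exact (k1 α y2 y1 hy2 hy1 hne.symm).smul hm
  have k2 : ∀ y ∈ O, {x | col H α β x y}.ncard = a := by
    have h3 : ∀ y ∈ O, {x | col H α β x y}.ncard = {x | col H α β x α}.ncard := by
      intro y hy
      obtain ⟨g, hg, rfl⟩ := hT.2 α hα y hy
      rw [in_eq hg, ncard_smul]
    have h4 := dcount_eq hO hO (col H α β) (p := a) (q := {x | col H α β x α}.ncard)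
      (fun x hx => by
        rw [← ha, ← out β x hx]
        exact congrArg _ (Set.ext fun y => ⟨fun h => h.2, fun h => ⟨(mem hβ h).2, h⟩⟩))
      (fun y hy => by
        rw [← h3 y hy]
        exact congrArg _ (Set.ext fun x => ⟨fun h => h.2, fun h => ⟨(mem hβ h).1, h⟩⟩))
    intro y hy
    rw [h3 y hy]
    exact (Nat.eq_of_mul_eq_mul_left (by omega) h4).symm
  obtain ⟨μ, hμ⟩ : ∃ μ, ({x | col H α β x y1} ∩ {x | col H α β x y2}).ncard = μ := ⟨_, rfl⟩
  have k3 : ∀ x y, col H α β' x y → ({γ | col H α β γ x} ∩ {γ | col H α β γ y}).ncard = μ := by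
    intro x y c
    obtain ⟨m, hm, rfl, rfl⟩ := k0 x y c
    rw [in_eq hm, in_eq hm, ← Set.smul_set_inter, ncard_smul, hμ]
  have k4 : a - 1 ≤ μ := by
    have h3 := dcount_eq (fi α) (fo hβ' α) (col H α β) (p := a - 1) (q := μ)
      (fun γ hγ => by
        rw [← ha, ← out β γ (mem hβ hγ).1,
          ← Set.ncard_sdiff_singleton_of_mem (show α ∈ {y | col H α β γ y} from hγ)]
        exact congrArg _ (Set.ext fun y => ⟨fun h => ⟨h.2, col.ne h.1 hβα'⟩,
          fun h => ⟨k1 γ α y hγ h.1 (Ne.symm h.2), h.1⟩⟩))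
      (fun y hy => k3 α y hy)
    have h4 := hmax β' ⟨hβ', hβα'⟩
    rw [k2 α hα] at h3
    simp only [ha] at h4
    exact Nat.le_of_mul_le_mul_left (h3.le.trans (Nat.mul_le_mul_right _ h4)) (by omega)
  have k5 : ∀ x y z, col H α β' x y → col H α β' y z → x = z ∨ col H α β' x z := by
    intro x y z c c'
    have h3 := k3 x y c
    have h4 := k3 y z c'
    have h5 := Set.ncard_union_add_ncard_inter ({γ | col H α β γ x} ∩ {γ | col H α β γ y})
      ({γ | col H α β γ y} ∩ {γ | col H α β γ z}) ((fi x).subset Set.inter_subset_left)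
      ((fi y).subset Set.inter_subset_left)
    have h6 := Set.ncard_le_ncard (Set.union_subset
      (Set.inter_subset_right (s := {γ | col H α β γ x}))
      (Set.inter_subset_left (t := {γ | col H α β γ z}))) (fi y)
    rw [k2 y (mem hβ' c).2] at h6
    obtain ⟨γ, hγ⟩ := Set.nonempty_of_ncard_ne_zero
      (s := ({γ | col H α β γ x} ∩ {γ | col H α β γ y}) ∩
        ({γ | col H α β γ y} ∩ {γ | col H α β γ z})) (by omega)
    exact (eq_or_ne x z).imp_right (k1 γ x z hγ.1.1 hγ.2.2)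
  obtain ⟨b3, bF, -⟩ := hs β' hβ' hβα' {y | col H α β' α y} rfl
  have := clq (F := F) hO (fun x y => x = y ∨ col H α β' x y) (fun x _ => Or.inl rfl)
    (fun x _ y _ h => h.imp Eq.symm (sym x y))
    (fun x _ y _ z _ h h' => by
      rcases h with rfl | h
      · exact h'
      rcases h' with rfl | h'
      · exact Or.inr h
      · exact k5 x y z h h')
    (e := {y | col H α β' α y}.ncard + 1)
    (fun x hx => by
      rw [← out β' x hx, ← Set.ncard_insert_of_notMem
        (show x ∉ {y | col H α β' x y} from fun h => col.ne h hβα' rfl) (fo hβ' x)]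
      exact congrArg _ (Set.ext fun y => ⟨fun h => h.2.imp Eq.symm id, fun h =>
        ⟨h.elim (fun e => e ▸ hx) fun c => (mem hβ' c).2, h.imp Eq.symm id⟩⟩))
    (fun x hx hxF => by
      obtain ⟨g, hg, e⟩ := hT.2 α hα x hx
      obtain ⟨n, hn, nF, nα⟩ := hB.wittH hK (X := {α}) (by simpa using hαF) hg
        (by simpa [e] using hxF)
      have e2 : n • α = x := (nα α rfl).trans e
      have e3 : {y ∈ O ∩ F | x = y ∨ col H α β' x y} = insert x ({y | col H α β' x y} ∩ F) :=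
        Set.ext fun y => ⟨fun h => h.2.imp Eq.symm fun c => ⟨c, h.1.2⟩, fun h =>
          h.elim (fun e => by subst e; exact ⟨⟨hx, hxF⟩, Or.inl rfl⟩) fun c =>
            ⟨⟨(mem hβ' c.1).2, c.2⟩, Or.inr c.1⟩⟩
      have e4 : ({y | col H α β' x y} ∩ F).ncard = ({y | col H α β' α y} ∩ F).ncard := by
        rw [← e2, out_eq hn]
        conv_lhs => rw [← nF, ← Set.smul_set_inter, ncard_smul]
      rw [e3, Set.ncard_insert_of_notMem (fun h => col.ne h.1 hβα' rfl)
        ((fo hβ' x).subset Set.inter_subset_left), e4]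
      omega)
  omega

end H63.Pnm
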