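import Cfsg.Agent.Lib.Pnm.Defs

namespace H63.Pnm
open Pointwise

namespace BOA
variable {G Ω : Type*} [Group G] [MulAction G Ω]

theorem sum_le {α β : Type*} {A : Set α} {B : Set β} (hA : A.Finite) (hB : B.Finite)
    (r : α → β → Prop) {q : ℕ} (hq : ∀ b ∈ B, {a ∈ A | r a b}.ncard ≤ q) :
    ∑ a ∈ hA.toFinset, {b ∈ B | r a b}.ncard ≤ B.ncard * q := by
  rw [dcount hA hB r, Set.ncard_eq_toFinset_card B hB]
  simpa using Finset.sum_le_card_nsmul hB.toFinset _ q fun b hb => hq b (by simpa using hb)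

theorem cj_iff (x u : G) (a b : Ω) : (x * u * x⁻¹) • x • a = x • b ↔ u • a = b := by
  rw [mul_smul, mul_smul, inv_smul_smul, smul_left_cancel_iff]

theorem cj_iff' {x : G} (u : G) {a b a' b' : Ω} (ha : x • a = a') (hb : x • b = b') :
    (x * u * x⁻¹) • a' = b' ↔ u • a = b := by
  rw [← ha, ← hb, cj_iff]

theorem mv_conj {H : Subgroup G} {O : Set Ω} (hinv : ∀ h ∈ H, ∀ x ∈ O, h • x ∈ O) {x : G}
    (hx : x ∈ H) (u : G) :
    {z ∈ O | (x * u * x⁻¹) • z ≠ z}.ncard = {z ∈ O | u • z ≠ z}.ncard := by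
  rw [← ncard_smul x {z ∈ O | u • z ≠ z}]
  congr 1; ext z
  rw [mem_smul]
  simp only [Set.mem_ofPred_eq]
  have e := cj_iff' (x := x) u (smul_inv_smul x z) (smul_inv_smul x z)
  constructor
  · rintro ⟨h1, h2⟩
    exact ⟨hinv _ (inv_mem hx) _ h1, fun h => h2 (e.2 h)⟩
  · rintro ⟨h1, h2⟩
    exact ⟨by simpa using hinv _ hx _ h1, fun h => h2 (e.1 h)⟩

theorem cnt_conj {T : Set G} (x : G) (hT : ∀ u, x * u * x⁻¹ ∈ T ↔ u ∈ T) {P Q : G → Prop}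
    (h : ∀ u, Q (x * u * x⁻¹) ↔ P u) : {u ∈ T | P u}.ncard = {u ∈ T | Q u}.ncard := by
  rw [← Set.ncard_image_of_injective {u ∈ T | P u} (MulAut.conj x).injective]
  congr 1; ext v
  constructor
  · rintro ⟨u, ⟨h1, h2⟩, rfl⟩; exact ⟨(hT u).2 h1, (h u).2 h2⟩
  · rintro ⟨h1, h2⟩
    have e : x * (x⁻¹ * v * x) * x⁻¹ = v := by group
    exact ⟨x⁻¹ * v * x, ⟨(hT _).1 (e.symm ▸ h1), (h _).1 (e.symm ▸ h2)⟩, e⟩

/-- the elements of `H` with `m` moved points that move `y` and fix `y'` -/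
def TT (H : Subgroup G) (O : Set Ω) (m : ℕ) (y y' : Ω) : Set G :=
  {u | u ∈ H ∧ {z ∈ O | u • z ≠ z}.ncard = m ∧ u • y ≠ y ∧ u • y' = y'}

theorem TT_conj {H : Subgroup G} {O : Set Ω} (hinv : ∀ h ∈ H, ∀ x ∈ O, h • x ∈ O) {m : ℕ}
    {y y' : Ω} {x : G} (hx : x ∈ H) (h1 : x • y = y) (h2 : x • y' = y') (u : G) :
    x * u * x⁻¹ ∈ TT H O m y y' ↔ u ∈ TT H O m y y' := by
  simp only [TT, Set.mem_ofPred_eq, mv_conj hinv hx u, ne_eq, cj_iff' u h1 h1, cj_iff' u h2 h2]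
  refine and_congr_left fun _ => ⟨fun h => ?_, fun h => mul_mem (mul_mem hx h) (inv_mem hx)⟩
  have := mul_mem (mul_mem (inv_mem hx) h) hx
  rwa [show x⁻¹ * (x * u * x⁻¹) * x = u by group] at this

theorem arith {k s t c1 c2 c3 c4 : ℕ} (ht : 0 < t) (hk : 2 ≤ k) (hs : 5 ≤ s)
    (hn : 15 ≤ 2 * k + 4 + s)
    (e1 : t * (k + 1) = (2 * k + 2 + s) * c1)
    (e2 : t * ((k + 1) * (k + 1 + s)) = (2 * k + 2 + s) * (2 * k + 1 + s) * c2)
    (e3 : t * 1 = (2 * k + 2 + s) * c3)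
    (e4 : t * k = (2 * k + 2 + s) * (2 * k + 1 + s) * c4)
    (h : t * (k + 2) ≤ t * 2 + k * c1 + k * c2 + (k + 2 + s) * c3 + k * (k + 2 + s) * c4) :
    False := by
  have h1 := Nat.mul_le_mul_left ((2 * k + 2 + s) * (2 * k + 1 + s)) h
  have h2 : (2 * k + 2 + s) * (2 * k + 1 + s) *
      (t * 2 + k * c1 + k * c2 + (k + 2 + s) * c3 + k * (k + 2 + s) * c4) =
      t * ((2 * k + 2 + s) * (2 * k + 1 + s) * 2 + k * (2 * k + 1 + s) * (k + 1) +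
        k * ((k + 1) * (k + 1 + s)) + (k + 2 + s) * (2 * k + 1 + s) + k * (k + 2 + s) * k) := by
    zify at e1 e2 e3 e4 ⊢
    linear_combination (-(k : ℤ) * (2 * k + 1 + s)) * e1 - (k : ℤ) * e2 -
      ((k : ℤ) + 2 + s) * (2 * k + 1 + s) * e3 - (k : ℤ) * (k + 2 + s) * e4
  rw [h2, show (2 * k + 2 + s) * (2 * k + 1 + s) * (t * (k + 2)) =
    t * ((2 * k + 2 + s) * (2 * k + 1 + s) * (k + 2)) by ring] at h1
  have h3 := Nat.le_of_mul_le_mul_left h1 ht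
  have h4 : (0 : ℤ) ≤ (k : ℤ) * (s - 3) - s - 1 := by
    rcases Nat.lt_or_ge k 3 with h | h
    · obtain rfl : k = 2 := by omega
      push_cast; omega
    · have a : (3 : ℤ) ≤ k := by exact_mod_cast h
      have b : (5 : ℤ) ≤ s := by exact_mod_cast hs
      nlinarith
  have h5 : (0 : ℤ) ≤ ((k : ℤ) + 2 + s) * ((k : ℤ) * (s - 3) - s - 1) :=
    mul_nonneg (by positivity) h4
  have h6 : (2 : ℤ) ≤ k := by exact_mod_cast hk
  zify at h3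
  nlinarith

theorem ncard_off {α : Type*} {A : Set α} (hA : A.Finite) {n : ℕ} (h : A.ncard = n + 1) :
    {p : α × α | p.1 ∈ A ∧ p.2 ∈ A ∧ p.1 ≠ p.2}.ncard = (n + 1) * n := by
  classical
  have e : {p : α × α | p.1 ∈ A ∧ p.2 ∈ A ∧ p.1 ≠ p.2} = (hA.toFinset.offDiag : Set (α × α)) := by
    ext p; simp
  rw [e, Set.ncard_coe_finset, Finset.offDiag_card, ← Set.ncard_eq_toFinset_card A hA, h,
    Nat.mul_succ, Nat.add_sub_cancel]

end BOA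
open BOA

theorem boch_count {G Ω : Type*} [Group G] [Finite G] [MulAction G Ω] {H : Subgroup G} {O : Set Ω}
    (hO : O.Finite) (hinv : ∀ h ∈ H, ∀ x ∈ O, h • x ∈ O) (h4 : Tk H O 4) {m : ℕ} (hm : 4 ≤ m)
    (hmin : ∀ g ∈ H, (∃ x ∈ O, g • x ≠ x) → m ≤ {x ∈ O | g • x ≠ x}.ncard)
    {g : G} (hg : g ∈ H) (hgm : {x ∈ O | g • x ≠ x}.ncard = m) :
    O.ncard ≤ 2 * m + 4 ∨ O.ncard ≤ 14 := by
  classical
  by_contra hc
  push Not at hc
  obtain ⟨k, rfl⟩ : ∃ k, m = k + 2 := ⟨m - 2, by omega⟩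
  obtain ⟨s, hs⟩ : ∃ s, O.ncard = 2 * k + 4 + s := ⟨O.ncard - (2 * k + 4), by omega⟩
  have h3 : Tk H O 3 := h4.mono (by omega) (by omega)
  have h2 : Tk H O 2 := h4.mono (by omega) (by omega)
  have hfin : ∀ u : G, {x ∈ O | u • x ≠ x}.Finite := fun u => hO.subset fun _ h => h.1
  set S := {x ∈ O | g • x ≠ x} with hS
  have hSO : S ⊆ O := fun _ h => h.1
  have hSf : S.Finite := hfin g
  obtain ⟨y, hy⟩ : S.Nonempty := Set.nonempty_of_ncard_ne_zero (by omega)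
  set y' := g • y with hy'
  have hyy : y' ≠ y := hy.2
  have hy'S : y' ∈ S := ⟨hinv g hg y hy.1, fun h => hy.2 (smul_left_cancel g h)⟩
  have hcomp : ∀ u : G, {x ∈ O | u • x ≠ x}.ncard = k + 2 →
      (O \ {x ∈ O | u • x ≠ x}).ncard = k + 2 + s := by
    intro u hu
    rw [Set.ncard_sdiff (fun _ h => h.1) (hfin u), hu]; omega
  set T := TT H O (k + 2) y y' with hT
  have hTf : T.Finite := Set.toFinite _
  have hTne : 0 < T.ncard := by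
    obtain ⟨w, hw⟩ : (O \ S).Nonempty :=
      Set.nonempty_of_ncard_ne_zero (by rw [hcomp g hgm]; omega)
    have hgw : g • w = w := by
      by_contra h; exact hw.2 ⟨hw.1, h⟩
    obtain ⟨x, hx, e1, e2⟩ := h2.two hy.1 hw.1 hy.1 hy'S.1 (fun h => hw.2 (h ▸ hy)) hyy.symm
    rw [Set.ncard_pos hTf]
    exact ⟨x * g * x⁻¹, mul_mem (mul_mem hx hg) (inv_mem hx), (mv_conj hinv hx g).trans hgm,
      fun h => hy.2 ((cj_iff' g e1 e1).1 h), (cj_iff' g e2 e2).2 hgw⟩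
  set O' := O \ {y, y'} with hO'
  have hO'f : O'.Finite := hO.subset Set.sdiff_subset
  have hpair : ({y, y'} : Set Ω).ncard = 2 := Set.ncard_pair hyy.symm
  have hO'c : O'.ncard = 2 * k + 2 + s := by
    rw [hO', Set.ncard_sdiff (by rintro _ (rfl | rfl); exacts [hy.1, hy'S.1]) (Set.toFinite _),
      hpair]; omega
  have mO' : ∀ {z}, z ∈ O' ↔ z ∈ O ∧ z ≠ y ∧ z ≠ y' := by
    intro z; simp [hO', not_or]
  set B := {p : Ω × Ω | p.1 ∈ O' ∧ p.2 ∈ O' ∧ p.1 ≠ p.2} with hB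
  have hBf : B.Finite := (hO'f.prod hO'f).subset fun p hp => ⟨hp.1, hp.2.1⟩
  have hBc : B.ncard = (2 * k + 2 + s) * (2 * k + 1 + s) := by
    rw [hB, ncard_off hO'f (n := 2 * k + 1 + s) (by omega)]; congr 1; omega
  have tr1 : ∀ z ∈ O', ∀ z' ∈ O', ∃ x ∈ H, x • y = y ∧ x • y' = y' ∧ x • z = z' := by
    intro z hz z' hz'
    rw [mO'] at hz hz'
    exact h3.three hy.1 hy'S.1 hz.1 hy.1 hy'S.1 hz'.1
      (by simp [hyy.symm, hz.2.1.symm, hz.2.2.symm]) (by simp [hyy.symm, hz'.2.1.symm, hz'.2.2.symm])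
  have tr2 : ∀ p ∈ B, ∀ p' ∈ B,
      ∃ x ∈ H, x • y = y ∧ x • y' = y' ∧ x • p.1 = p'.1 ∧ x • p.2 = p'.2 := by
    rintro p ⟨a1, a2, a3⟩ p' ⟨b1, b2, b3⟩
    rw [mO'] at a1 a2 b1 b2
    exact h4.four hy.1 hy'S.1 a1.1 a2.1 hy.1 hy'S.1 b1.1 b2.1
      (by simp [hyy.symm, a1.2.1.symm, a1.2.2.symm, a2.2.1.symm, a2.2.2.symm, a3])
      (by simp [hyy.symm, b1.2.1.symm, b1.2.2.symm, b2.2.1.symm, b2.2.2.symm, b3])
  obtain ⟨p0, hp0⟩ : B.Nonempty :=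
    Set.nonempty_of_ncard_ne_zero (by rw [hBc]; exact Nat.mul_ne_zero (by omega) (by omega))
  set c1 := {u ∈ T | u • p0.1 ≠ p0.1}.ncard with hc1
  set c2 := {u ∈ T | u • p0.1 ≠ p0.1 ∧ u • p0.2 = p0.2}.ncard with hc2
  set c3 := {u ∈ T | u • y = p0.1}.ncard with hc3
  set c4 := {u ∈ T | u • p0.1 = p0.2}.ncard with hc4
  have k1 : ∀ z ∈ O', {u ∈ T | u • z ≠ z}.ncard = c1 := by
    intro z hz
    obtain ⟨x, hx, a1, a2, a3⟩ := tr1 z hz _ hp0.1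
    exact cnt_conj x (TT_conj hinv hx a1 a2) fun u => not_congr (cj_iff' u a3 a3)
  have k2 : ∀ p ∈ B, {u ∈ T | u • p.1 ≠ p.1 ∧ u • p.2 = p.2}.ncard = c2 := by
    intro p hp
    obtain ⟨x, hx, a1, a2, a3, a4⟩ := tr2 p hp _ hp0
    exact cnt_conj x (TT_conj hinv hx a1 a2) fun u =>
      and_congr (not_congr (cj_iff' u a3 a3)) (cj_iff' u a4 a4)
  have k3 : ∀ z ∈ O', {u ∈ T | u • y = z}.ncard = c3 := by
    intro z hz
    obtain ⟨x, hx, a1, a2, a3⟩ := tr1 z hz _ hp0.1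
    exact cnt_conj x (TT_conj hinv hx a1 a2) fun u => cj_iff' u a1 a3
  have k4 : ∀ p ∈ B, {u ∈ T | u • p.1 = p.2}.ncard = c4 := by
    intro p hp
    obtain ⟨x, hx, a1, a2, a3, a4⟩ := tr2 p hp _ hp0
    exact cnt_conj x (TT_conj hinv hx a1 a2) fun u => cj_iff' u a3 a4
  have d1 : ∀ u ∈ T, ({x ∈ O | u • x ≠ x} \ {y}).ncard = k + 1 := by
    intro u hu
    rw [Set.ncard_sdiff_singleton_of_mem (show y ∈ {x ∈ O | u • x ≠ x} from ⟨hy.1, hu.2.2.1⟩),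
      hu.2.1]; rfl
  have e1 : T.ncard * (k + 1) = O'.ncard * c1 := by
    refine dcount_eq hTf hO'f (fun u z => u • z ≠ z) (fun u hu => ?_) k1
    rw [← d1 u hu]; congr 1; ext z
    simp only [Set.mem_ofPred_eq, mO', Set.mem_sdiff, Set.mem_singleton_iff]
    exact ⟨fun h => ⟨⟨h.1.1, h.2⟩, h.1.2.1⟩,
      fun h => ⟨⟨h.1.1, h.2, fun e => h.1.2 (e ▸ hu.2.2.2)⟩, h.1.2⟩⟩
  have e2 : T.ncard * ((k + 1) * (k + 1 + s)) = B.ncard * c2 := by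
    refine dcount_eq hTf hBf (fun u p => u • p.1 ≠ p.1 ∧ u • p.2 = p.2) (fun u hu => ?_) k2
    have d2 : ((O \ {x ∈ O | u • x ≠ x}) \ {y'}).ncard = k + 1 + s := by
      rw [Set.ncard_sdiff_singleton_of_mem
        (show y' ∈ O \ {x ∈ O | u • x ≠ x} from ⟨hy'S.1, fun h => h.2 hu.2.2.2⟩), hcomp u hu.2.1]
      omega
    rw [← d2, ← d1 u hu, ← Set.ncard_prod]; congr 1; ext p
    simp only [hB, Set.mem_ofPred_eq, mO', Set.mem_sdiff, Set.mem_singleton_iff, Set.mem_prod]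
    constructor
    · rintro ⟨⟨a1, a2, a3⟩, a4, a5⟩
      exact ⟨⟨⟨a1.1, a4⟩, a1.2.1⟩, ⟨a2.1, fun h => h.2 a5⟩, a2.2.2⟩
    · rintro ⟨⟨⟨a1, a2⟩, a3⟩, ⟨a4, a5⟩, a6⟩
      have a7 : u • p.2 = p.2 := by
        by_contra h; exact a5 ⟨a4, h⟩
      exact ⟨⟨⟨a1, a3, fun e => a2 (e ▸ hu.2.2.2)⟩, ⟨a4, fun e => hu.2.2.1 (e ▸ a7), a6⟩,
        fun e => a2 (e ▸ a7)⟩, a2, a7⟩
  have e3 : T.ncard * 1 = O'.ncard * c3 := by
    refine dcount_eq hTf hO'f (fun u z => u • y = z) (fun u hu => ?_) k3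
    rw [← Set.ncard_singleton (u • y)]; congr 1; ext z
    simp only [Set.mem_ofPred_eq, mO', Set.mem_singleton_iff]
    refine ⟨fun h => h.2.symm, fun h => ⟨?_, h.symm⟩⟩
    rw [h]
    exact ⟨hinv u hu.1 y hy.1, hu.2.2.1,
      fun e => hyy (smul_left_cancel u (hu.2.2.2.trans e.symm))⟩
  have e4 : T.ncard * k = B.ncard * c4 := by
    refine dcount_eq hTf hBf (fun u p => u • p.1 = p.2) (fun u hu => ?_) k4
    have hne : u⁻¹ • y ≠ y := fun e => hu.2.2.1 (by rw [inv_smul_eq_iff] at e; exact e.symm)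
    have d2 : (({x ∈ O | u • x ≠ x} \ {y}) \ {u⁻¹ • y}).ncard = k := by
      rw [Set.ncard_sdiff_singleton_of_mem
        (show u⁻¹ • y ∈ {x ∈ O | u • x ≠ x} \ {y} from
          ⟨⟨hinv _ (inv_mem hu.1) y hy.1, by rw [smul_inv_smul]; exact hne.symm⟩, hne⟩), d1 u hu]
      rfl
    rw [← d2, ← Set.ncard_image_of_injective _ (f := fun a : Ω => (a, u • a))
      (fun a b h => (Prod.ext_iff.1 h).1)]
    congr 1; ext ⟨a, z⟩
    simp only [hB, Set.mem_ofPred_eq, mO', Set.mem_sdiff, Set.mem_singleton_iff, Set.mem_image,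
      Prod.mk.injEq]
    constructor
    · rintro ⟨⟨a1, a2, a3⟩, rfl⟩
      exact ⟨a, ⟨⟨⟨a1.1, fun e => a3 e.symm⟩, a1.2.1⟩,
        fun e => a2.2.1 (by rw [e, smul_inv_smul])⟩, rfl, rfl⟩
    · rintro ⟨a, ⟨⟨⟨a1, a2⟩, a3⟩, a4⟩, rfl, rfl⟩
      have a5 : a ≠ y' := fun e => a2 (e ▸ hu.2.2.2)
      exact ⟨⟨⟨a1, a3, a5⟩, ⟨hinv u hu.1 a a1, fun e => a4 (by rw [← e, inv_smul_smul]),
        fun e => a5 (smul_left_cancel u (e.trans hu.2.2.2.symm))⟩, fun e => a2 e.symm⟩, rfl⟩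
  set S' := S \ {y, y'} with hS'
  have hS'f : S'.Finite := hSf.subset Set.sdiff_subset
  have hS'c : S'.ncard = k := by
    rw [hS', Set.ncard_sdiff (by rintro _ (rfl | rfl); exacts [hy, hy'S]) (Set.toFinite _),
      hpair, hgm]; rfl
  have mS' : ∀ {z}, z ∈ S' ↔ z ∈ S ∧ z ≠ y ∧ z ≠ y' := by
    intro z; simp [hS', not_or]
  have hRf : (O \ S).Finite := hO.subset Set.sdiff_subset
  have hRc : (O \ S).ncard = k + 2 + s := hcomp g hgm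
  have hRO : ∀ z ∈ O \ S, z ∈ O' := fun z hz =>
    mO'.2 ⟨hz.1, fun e => hz.2 (e ▸ hy), fun e => hz.2 (e ▸ hy'S)⟩
  have hSO' : ∀ z ∈ S', z ∈ O' := fun z hz => mO'.2 ⟨(mS'.1 hz).1.1, (mS'.1 hz).2⟩
  have s1 := sum_le hTf hS'f (fun u z => u • z ≠ z) (q := c1)
    fun z hz => (k1 z (hSO' z hz)).le
  have s2 := sum_le hTf hS'f (fun u z => u • g⁻¹ • z ≠ g⁻¹ • z ∧ u • z = z) (q := c2) (by
    intro z hz
    by_cases e : g⁻¹ • z = y'
    · rw [show {u ∈ T | u • g⁻¹ • z ≠ g⁻¹ • z ∧ u • z = z} = ∅ from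
        Set.eq_empty_of_forall_notMem fun u hu => hu.2.1 (e ▸ hu.1.2.2.2)]
      simp
    · have hz' := mS'.1 hz
      exact (k2 (g⁻¹ • z, z) ⟨mO'.2 ⟨hinv _ (inv_mem hg) z hz'.1.1,
        fun h => hz'.2.2 (by rw [hy', ← h, smul_inv_smul]), e⟩, hSO' z hz,
        fun h => hz'.1.2 (by simp only [inv_smul_eq_iff] at h; exact h.symm)⟩).le)
  have s3 := sum_le hTf hRf (fun u z => u • y = z) (q := c3) fun z hz => (k3 z (hRO z hz)).le
  have s4 := sum_le hTf (hS'f.prod hRf) (fun u p => u • p.1 = p.2) (q := c4) fun p hp =>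
    (k4 p ⟨hSO' _ hp.1, hRO _ hp.2, fun e => hp.2.2 (e ▸ (mS'.1 hp.1).1)⟩).le
  have key : ∀ u ∈ hTf.toFinset, k + 2 ≤ 2 + {z ∈ S' | u • z ≠ z}.ncard +
      {z ∈ S' | u • g⁻¹ • z ≠ g⁻¹ • z ∧ u • z = z}.ncard + {z ∈ O \ S | u • y = z}.ncard +
      {p ∈ S' ×ˢ (O \ S) | u • p.1 = p.2}.ncard := by
    intro u hu
    rw [Set.Finite.mem_toFinset] at hu
    have hcH : g * u * g⁻¹ * u⁻¹ ∈ H :=
      mul_mem (mul_mem (mul_mem hg hu.1) (inv_mem hg)) (inv_mem hu.1)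
    have hmv := hmin _ hcH ⟨y', hy'S.1, fun e => hu.2.2.1 (by
      have a1 : u⁻¹ • y' = y' := by rw [inv_smul_eq_iff]; exact hu.2.2.2.symm
      rw [mul_smul, mul_smul, mul_smul, a1, hy', inv_smul_smul] at e
      exact smul_left_cancel g e)⟩
    have f1 : {z ∈ S' | u • z ≠ z}.Finite := hS'f.subset fun _ h => h.1
    have f2 : {z ∈ S' | u • g⁻¹ • z ≠ g⁻¹ • z ∧ u • z = z}.Finite := hS'f.subset fun _ h => h.1
    have f3 : {z ∈ O \ S | u • y = z}.Finite := hRf.subset fun _ h => h.1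
    have f4 : {p ∈ S' ×ˢ (O \ S) | u • p.1 = p.2}.Finite :=
      (hS'f.prod hRf).subset fun _ h => h.1
    have hsub : {x ∈ O | (g * u * g⁻¹ * u⁻¹) • x ≠ x} ⊆ {y, y'} ∪ {z ∈ S' | u • z ≠ z} ∪
        {z ∈ S' | u • g⁻¹ • z ≠ g⁻¹ • z ∧ u • z = z} ∪ {z ∈ O \ S | u • y = z} ∪
        Prod.snd '' {p ∈ S' ×ˢ (O \ S) | u • p.1 = p.2} := by
      rintro z ⟨hz, hmz⟩
      rw [mul_smul, mul_smul, mul_smul] at hmz
      by_cases a1 : z ∈ ({y, y'} : Set Ω)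
      · exact Or.inl (Or.inl (Or.inl (Or.inl a1)))
      by_cases a2 : z ∈ S
      · by_cases a3 : u • z = z
        · refine Or.inl (Or.inl (Or.inr ⟨⟨a2, a1⟩, fun e => hmz ?_, a3⟩))
          rw [show u⁻¹ • z = z by rw [inv_smul_eq_iff]; exact a3.symm, e, smul_inv_smul]
        · exact Or.inl (Or.inl (Or.inl (Or.inr ⟨⟨a2, a1⟩, a3⟩)))
      · have a3 : g • z = z := by
          by_contra h; exact a2 ⟨hz, h⟩
        have a4 : u⁻¹ • z ∈ S := ⟨hinv _ (inv_mem hu.1) z hz, fun e => hmz (by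
          rw [show g⁻¹ • u⁻¹ • z = u⁻¹ • z by rw [inv_smul_eq_iff]; exact e.symm,
            smul_inv_smul, a3])⟩
        by_cases a5 : u⁻¹ • z = y
        · exact Or.inl (Or.inr ⟨⟨hz, a2⟩, by rw [← a5, smul_inv_smul]⟩)
        · refine Or.inr ⟨(u⁻¹ • z, z), ⟨⟨mS'.2 ⟨a4, a5, fun e => a1 (Or.inr ?_)⟩, hz, a2⟩,
            smul_inv_smul u z⟩, rfl⟩
          rw [inv_smul_eq_iff] at e
          exact e.trans hu.2.2.2
    have b0 := Set.ncard_le_ncard hsub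
      (((((Set.toFinite _).union f1).union f2).union f3).union (f4.image _))
    have b1 := Set.ncard_union_le ({y, y'} ∪ {z ∈ S' | u • z ≠ z} ∪
        {z ∈ S' | u • g⁻¹ • z ≠ g⁻¹ • z ∧ u • z = z} ∪ {z ∈ O \ S | u • y = z})
      (Prod.snd '' {p ∈ S' ×ˢ (O \ S) | u • p.1 = p.2})
    have b2 := Set.ncard_union_le ({y, y'} ∪ {z ∈ S' | u • z ≠ z} ∪
        {z ∈ S' | u • g⁻¹ • z ≠ g⁻¹ • z ∧ u • z = z}) {z ∈ O \ S | u • y = z}
    have b3 := Set.ncard_union_le ({y, y'} ∪ {z ∈ S' | u • z ≠ z})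
      {z ∈ S' | u • g⁻¹ • z ≠ g⁻¹ • z ∧ u • z = z}
    have b4 := Set.ncard_union_le ({y, y'} : Set Ω) {z ∈ S' | u • z ≠ z}
    have b5 := Set.ncard_image_le (f := Prod.snd) f4
    omega
  have hsum := Finset.sum_le_sum key
  simp only [Finset.sum_add_distrib, Finset.sum_const, smul_eq_mul,
    ← Set.ncard_eq_toFinset_card T hTf] at hsum
  rw [Set.ncard_prod, hS'c, hRc] at s4
  rw [hS'c] at s1 s2
  rw [hRc] at s3
  rw [hO'c] at e1 e3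
  rw [hBc] at e2 e4
  exact arith hTne (by omega) (by omega) (by omega) e1 e2 e3 e4 (by rw [mul_add]; omega)

end H63.Pnm
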