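import Cfsg.Agent.Lib.Pnm.Defs

namespace H63.Pnm
open Pointwise

namespace BOB

theorem exists_triple {G Ω : Type*} [Group G] [MulAction G Ω] {H : Subgroup G} {O : Set Ω}
    (hO : O.Finite) (hinv : ∀ h ∈ H, ∀ x ∈ O, h • x ∈ O) {g : G} (hg : g ∈ H)
    (h1 : ∃ x ∈ O, g • x ≠ x) (hs : {x ∈ O | g • x ≠ x}.ncard ≤ 3) (h3 : 3 ≤ O.ncard) :
    ∃ a ∈ O, ∃ b ∈ O, ∃ c ∈ O, a ≠ b ∧ a ≠ c ∧ b ≠ c ∧ g • a = b ∧
      ∀ x ∈ O, x ≠ a → x ≠ b → x ≠ c → g • x = x := by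
  obtain ⟨a, ha, hga⟩ := h1
  have hb : g • a ∈ O := hinv g hg a ha
  have hgb : g • g • a ≠ g • a := fun e => hga (smul_left_cancel g e)
  by_cases hc : ∃ c ∈ O, g • c ≠ c ∧ c ≠ a ∧ c ≠ g • a
  · obtain ⟨c, hc, hgc, hca, hcb⟩ := hc
    refine ⟨a, ha, g • a, hb, c, hc, hga.symm, hca.symm, hcb.symm, rfl, fun x hx xa xb xc => ?_⟩
    by_contra hgx
    have hsub : ({x, a, g • a, c} : Set Ω) ⊆ {x ∈ O | g • x ≠ x} := by
      intro y hy
      simp only [Set.mem_insert_iff, Set.mem_singleton_iff] at hy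
      rcases hy with rfl | rfl | rfl | rfl
      exacts [⟨hx, hgx⟩, ⟨ha, hga⟩, ⟨hb, hgb⟩, ⟨hc, hgc⟩]
    have hle := Set.ncard_le_ncard hsub (hO.subset fun _ h => h.1)
    have e3 : ({a, g • a, c} : Set Ω).ncard = 3 :=
      Set.ncard_eq_three.2 ⟨a, g • a, c, hga.symm, hca.symm, hcb.symm, rfl⟩
    rw [Set.ncard_insert_of_notMem (by simp [xa, xb, xc]), e3] at hle
    omega
  · have : ∃ c ∈ O, c ∉ ({a, g • a} : Set Ω) := by
      by_contra hn
      push Not at hn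
      have := Set.ncard_le_ncard (show O ⊆ {a, g • a} from hn) (Set.toFinite _)
      rw [Set.ncard_pair hga.symm] at this
      omega
    obtain ⟨c, hcO, hcn⟩ := this
    simp only [Set.mem_insert_iff, Set.mem_singleton_iff, not_or] at hcn
    refine ⟨a, ha, g • a, hb, c, hcO, hga.symm, Ne.symm hcn.1, Ne.symm hcn.2, rfl,
      fun x hx xa xb _ => ?_⟩
    by_contra hgx
    exact hc ⟨x, hx, hgx, xa, xb⟩

end BOB

theorem hom_of_small {G Ω : Type*} [Group G] [MulAction G Ω] {H : Subgroup G} {O : Set Ω}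
    (hO : O.Finite) (hinv : ∀ h ∈ H, ∀ x ∈ O, h • x ∈ O) (h3 : Tk H O 3) {g : G} (hg : g ∈ H)
    (h1 : ∃ x ∈ O, g • x ≠ x) (hs : {x ∈ O | g • x ≠ x}.ncard ≤ 3) : Hom H O := by
  intro A B hA hB hAB hAO
  by_cases hA0 : A.ncard = 0
  · rw [Set.ncard_eq_zero (hO.subset hA)] at hA0
    exact ⟨1, one_mem _, by simp [hA0]⟩
  obtain ⟨a, ha, b, hb, c, hc, hab, hac, hbc, hgab, hfix⟩ :=
    BOB.exists_triple hO hinv hg h1 hs (by omega)
  have step : ∀ a' ∈ O, ∀ b' ∈ O, ∀ c' ∈ O, a' ≠ b' → a' ≠ c' → b' ≠ c' →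
      ∃ h ∈ H, h • a' = b' ∧ ∀ x ∈ O, x ≠ a' → x ≠ b' → x ≠ c' → h • x = x := by
    intro a' ha' b' hb' c' hc' h1 h2 h4
    obtain ⟨k, hk, e1, e2, e3⟩ := h3.three ha hb hc ha' hb' hc' (by simp [hab, hac, hbc])
      (by simp [h1, h2, h4])
    refine ⟨k * g * k⁻¹, mul_mem (mul_mem hk hg) (inv_mem hk), ?_, fun x hx xa xb xc => ?_⟩
    · rw [mul_smul, mul_smul, ← e1, inv_smul_smul, hgab, e2]
    · rw [mul_smul, mul_smul, hfix _ (hinv _ (inv_mem hk) x hx), smul_inv_smul]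
      · intro e; exact xa (by rw [← e1, ← e, smul_inv_smul])
      · intro e; exact xb (by rw [← e2, ← e, smul_inv_smul])
      · intro e; exact xc (by rw [← e3, ← e, smul_inv_smul])
  clear hA0
  induction hn : (A \ B).ncard using Nat.strong_induction_on generalizing A with
  | _ n ih =>
    have hAf := hO.subset hA
    have hBf := hO.subset hB
    by_cases hsub : A ⊆ B
    · exact ⟨1, one_mem _, by simpa using hsub⟩
    obtain ⟨a', ha'A, ha'B⟩ := Set.not_subset.1 hsub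
    have hb' : ∃ b' ∈ B, b' ∉ A := by
      by_contra hn'
      push Not at hn'
      have := Set.eq_of_subset_of_ncard_le (show B ⊆ A from hn') hAB hAf
      exact ha'B (this ▸ ha'A)
    obtain ⟨b', hb'B, hb'A⟩ := hb'
    have hc' : ∃ c' ∈ O, c' ∉ insert b' A := by
      by_contra hn'
      push Not at hn'
      have h5 := Set.ncard_le_ncard (show O ⊆ insert b' A from hn') (hAf.insert _)
      have h6 := Set.ncard_insert_le b' A
      omega
    obtain ⟨c', hc'O, hc'n⟩ := hc'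
    simp only [Set.mem_insert_iff, not_or] at hc'n
    obtain ⟨h, hh, e1, e2⟩ := step a' (hA ha'A) b' (hB hb'B) c' hc'O
      (fun e => hb'A (e ▸ ha'A)) (fun e => hc'n.2 (e ▸ ha'A)) (Ne.symm hc'n.1)
    have hlt : ((h • A) \ B).ncard < n := by
      rw [← hn]
      refine Set.ncard_lt_ncard ⟨?_, fun hs' => ?_⟩ (hAf.subset Set.sdiff_subset)
      · rintro _ ⟨⟨x, hx, rfl⟩, hxB⟩
        by_cases hxa : x = a'
        · subst hxa
          exact absurd (show h • x ∈ B from e1 ▸ hb'B) hxB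
        · have := e2 x (hA hx) hxa (fun e => hb'A (e ▸ hx)) (fun e => hc'n.2 (e ▸ hx))
          simp only at hxB ⊢
          rw [this] at hxB ⊢
          exact ⟨hx, hxB⟩
      · obtain ⟨⟨x, hx, ex⟩, -⟩ := hs' ⟨ha'A, ha'B⟩
        simp only at ex
        by_cases hxa : x = a'
        · subst hxa
          exact ha'B (by rw [← ex, e1]; exact hb'B)
        · have := e2 x (hA hx) hxa (fun e => hb'A (e ▸ hx)) (fun e => hc'n.2 (e ▸ hx))
          exact hxa (this.symm.trans ex)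
    obtain ⟨h', hh', e⟩ := ih _ hlt (h • A)
      (by rintro _ ⟨x, hx, rfl⟩; exact hinv h hh x (hA hx))
      (by rwa [ncard_smul]) (by rwa [ncard_smul]) rfl
    exact ⟨h' * h, mul_mem hh' hh, by rwa [mul_smul]⟩

end H63.Pnm
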