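import Cfsg.Agent.Lib.Pnm.Defs

namespace H63.Pnm
open Pointwise

namespace C12A

variable {G Ω : Type*} [Group G] [MulAction G Ω] {α β γ x y z w : Ω} {D : Set Ω}

/-- the quaternary relation attached to the orbit `D` of the three point stabiliser -/
def Q (G : Type*) [Group G] [MulAction G Ω] (α β γ : Ω) (D : Set Ω) (x y z w : Ω) : Prop :=
  ∃ g : G, g • α = x ∧ g • β = y ∧ g • γ = z ∧ w ∈ g • D

theorem Q.smul (h : Q G α β γ D x y z w) (g : G) :
    Q G α β γ D (g • x) (g • y) (g • z) (g • w) := by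
  obtain ⟨k, rfl, rfl, rfl, hw⟩ := h
  exact ⟨g * k, mul_smul _ _ _, mul_smul _ _ _, mul_smul _ _ _, by
    rw [mul_smul]; exact smul_mem.2 hw⟩

theorem memL {g : G} :
    g ∈ fixingSubgroup G ({α, β, γ} : Set Ω) ↔ g • α = α ∧ g • β = β ∧ g • γ = γ := by
  simp [mem_fixingSubgroup_iff]

theorem Q_iff (hD : Tr (fixingSubgroup G {α, β, γ}) D) (g : G) :
    Q G α β γ D (g • α) (g • β) (g • γ) w ↔ w ∈ g • D := by
  refine ⟨?_, fun h => ⟨g, rfl, rfl, rfl, h⟩⟩
  rintro ⟨k, h1, h2, h3, hw⟩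
  have := hD.1 (g⁻¹ * k) (memL.2 ⟨by rw [mul_smul, h1, inv_smul_smul],
    by rw [mul_smul, h2, inv_smul_smul], by rw [mul_smul, h3, inv_smul_smul]⟩) _ (mem_smul.1 hw)
  rw [mul_smul, smul_inv_smul] at this
  exact mem_smul.2 this

theorem nodup_smul {l : List Ω} (h : l.Nodup) (g : G) : (l.map fun x => g • x).Nodup :=
  h.map (MulAction.injective g)

end C12A

open C12A in
theorem c12_a {G Ω : Type*} [Group G] [Finite G] [MulAction G Ω] [Finite Ω] {K : Subgroup G}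
    {F : Set Ω} (hB : Blk K F) (h3 : Tk (⊤ : Subgroup G) (Set.univ : Set Ω) 3) {α β γ : Ω}
    (hα : α ∈ F) (hβ : β ∈ F) (hγ : γ ∈ F) (hd : [α, β, γ].Nodup) {D E : Set Ω}
    (hDE : D ∪ E = {α, β, γ}ᶜ) (hdis : Disjoint D E)
    (hD : Tr (fixingSubgroup G {α, β, γ}) D) (hE : Tr (fixingSubgroup G {α, β, γ}) E)
    (hD2 : Tk (fixingSubgroup G {α, β, γ}) D 2) {a : ℕ} (ha : D.ncard = a) (h3a : 3 ≤ a)
    (hDF : a = 2 * (D ∩ F).ncard + 1) (hEF : E.ncard = 2 * (E ∩ F).ncard + 2) :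
    ∃ Q : Ω → Ω → Ω → Ω → Prop, (∀ x y z w, Q x y z w → [x, y, z, w].Nodup) ∧
      (∀ x y z w, Q x y z w → Q y x z w ∧ Q x z y w ∧ Q x y w z) ∧
      (∀ (g : G) x y z w, Q x y z w → Q (g • x) (g • y) (g • z) (g • w)) ∧
      (∀ x y z, [x, y, z].Nodup → {w | Q x y z w}.ncard = a) ∧
      (∀ x y z w x' y' z' w', [x, y, z, w].Nodup → [x', y', z', w'].Nodup → ¬ Q x y z w →
        ¬ Q x' y' z' w' → ∃ g : G, g • x = x' ∧ g • y = y' ∧ g • z = z' ∧ g • w = w') ∧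
      ((∀ x y z w v, Q x y z w → Q x y z v → w ≠ v → Q x y w v) ∨
        (∀ x y z w v, Q x y z w → Q x y z v → ¬ Q x y w v)) ∧
      (∀ x ∈ F, ∀ y ∈ F, ∀ z ∈ F, [x, y, z].Nodup → a = 2 * {w ∈ F | Q x y z w}.ncard + 1) ∧
      a + 3 < Nat.card Ω := by
  have hfin : ∀ S : Set Ω, S.Finite := fun S => Set.toFinite S
  have mv : ∀ {x y z : Ω}, [x, y, z].Nodup → ∃ g : G, g • α = x ∧ g • β = y ∧ g • γ = z := by
    intro x y z h
    obtain ⟨g, -, hg⟩ := h3.three (Set.mem_univ α) (Set.mem_univ β) (Set.mem_univ γ)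
      (Set.mem_univ x) (Set.mem_univ y) (Set.mem_univ z) hd h
    exact ⟨g, hg⟩
  have hc : ∀ w, w ∈ D ∪ E ↔ α ≠ w ∧ β ≠ w ∧ γ ≠ w := by
    intro w; rw [hDE]; simp [not_or, eq_comm]
  have hd' : α ≠ β ∧ α ≠ γ ∧ β ≠ γ := by simpa [not_or, and_assoc] using hd
  have nd : ∀ x y z w, Q G α β γ D x y z w → [x, y, z, w].Nodup := by
    rintro _ _ _ _ ⟨g, rfl, rfl, rfl, w, hw, rfl⟩
    have h1 := (hc w).1 (Or.inl hw)
    have h2 : [α, β, γ, w].Nodup := by simp [hd', h1]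
    exact nodup_smul h2 g
  have cnt : ∀ x y z, [x, y, z].Nodup → {w | Q G α β γ D x y z w}.ncard = a := by
    intro x y z h
    obtain ⟨g, rfl, rfl, rfl⟩ := mv h
    rw [← ha, ← ncard_smul g D]
    exact congrArg _ (Set.ext fun w => Q_iff hD g)
  have inv : ∀ T : Set Ω, T ⊆ D ∪ E →
      (∀ l : G, l • α = α → l • β = β → l • γ = γ → ∀ x ∈ T, l • x ∈ T) → T.ncard = a →
      D ⊆ T := by
    intro T h1 h2 h4
    have tr : ∀ S : Set Ω, Tr (fixingSubgroup G {α, β, γ}) S → ∀ x ∈ T, x ∈ S → S ⊆ T := by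
      intro S hS x hx hxS y hy
      obtain ⟨l, hl, rfl⟩ := hS.2 x hxS y hy
      obtain ⟨l1, l2, l3⟩ := memL.1 hl
      exact h2 l l1 l2 l3 x hx
    by_cases h5 : ∃ x ∈ T, x ∈ D
    · obtain ⟨x, hx, hxD⟩ := h5
      exact tr D hD x hx hxD
    · push Not at h5
      have h6 : T ⊆ E := fun x hx => (h1 hx).resolve_left (h5 x hx)
      obtain ⟨x, hx⟩ := Set.nonempty_of_ncard_ne_zero (s := T) (by omega)
      rw [Set.Subset.antisymm h6 (tr E hE x hx (h6 hx))] at h4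
      omega
  have s1 : D ⊆ {w | Q G α β γ D β α γ w} := by
    refine inv _ (fun w hw => (hc w).2 ?_) (fun l l1 l2 l3 x hx => ?_)
      (cnt _ _ _ (by simp [hd', hd'.1.symm]))
    · have := nd _ _ _ _ hw
      simp only [List.nodup_cons, List.mem_cons, not_or] at this
      tauto
    · have := Q.smul hx l
      rwa [l1, l2, l3] at this
  have s2 : D ⊆ {w | Q G α β γ D α γ β w} := by
    refine inv _ (fun w hw => (hc w).2 ?_) (fun l l1 l2 l3 x hx => ?_)
      (cnt _ _ _ (by simp [hd', hd'.2.2.symm]))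
    · have := nd _ _ _ _ hw
      simp only [List.nodup_cons, List.mem_cons, not_or] at this
      tauto
    · have := Q.smul hx l
      rwa [l1, l2, l3] at this
  have s3 : D ⊆ {w | Q G α β γ D α β w γ} := by
    refine inv _ (fun w hw => (hc w).2 ?_) (fun l l1 l2 l3 x hx => ?_) ?_
    · have := nd _ _ _ _ hw
      simp only [List.nodup_cons, List.mem_cons, not_or] at this
      exact ⟨this.1.2.1, this.2.1.1, fun e => this.2.2.1.1 e.symm⟩
    · have := Q.smul hx l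
      rwa [l1, l2, l3] at this
    have ho : ∀ {z w}, Q G α β γ D α β z w → z ∈ ({α, β}ᶜ : Set Ω) ∧ w ∈ ({α, β}ᶜ : Set Ω) := by
      intro z w h
      have := nd _ _ _ _ h
      simp only [List.nodup_cons, List.mem_cons, not_or] at this
      simp only [Set.mem_compl_iff, Set.mem_insert_iff, Set.mem_singleton_iff, not_or]
      exact ⟨⟨fun e => this.1.2.1 e.symm, fun e => this.2.1.1 e.symm⟩,
        fun e => this.1.2.2.1 e.symm, fun e => this.2.1.2.1 e.symm⟩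
    have no : ∀ z ∈ ({α, β}ᶜ : Set Ω), [α, β, z].Nodup := by
      intro z hz
      simp only [Set.mem_compl_iff, Set.mem_insert_iff, Set.mem_singleton_iff, not_or] at hz
      simp [hd', Ne.symm hz.1, Ne.symm hz.2]
    have h4 := dcount_eq (hfin {α, β}ᶜ) (hfin {α, β}ᶜ) (Q G α β γ D α β) (p := a)
      (q := {w | Q G α β γ D α β w γ}.ncard)
      (fun z hz => by
        rw [← cnt α β z (no z hz)]
        exact congrArg _ (Set.ext fun w => ⟨fun h => h.2, fun h => ⟨(ho h).2, h⟩⟩))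
      (fun w hw => by
        obtain ⟨g, g1, g2, rfl⟩ := mv (no w hw)
        rw [← ncard_smul g {w | Q G α β γ D α β w γ}]
        refine congrArg _ (Set.ext fun z => ?_)
        rw [mem_smul]
        constructor
        · intro h
          have := Q.smul h.2 g⁻¹
          rwa [inv_smul_smul, inv_smul_eq_iff.2 g1.symm, inv_smul_eq_iff.2 g2.symm] at this
        · intro h
          have := Q.smul h g
          rw [smul_inv_smul, g1, g2] at this
          exact ⟨(ho this).1, this⟩)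
    have h5 : 0 < ({α, β}ᶜ : Set Ω).ncard :=
      (Set.ncard_pos (hfin _)).2 ⟨γ, by simp [hd'.2.1.symm, hd'.2.2.symm]⟩
    exact (Nat.eq_of_mul_eq_mul_left h5 h4).symm
  refine ⟨Q G α β γ D, nd, ?_, fun g x y z w h => h.smul g, cnt, ?_, ?_, ?_, ?_⟩
  · rintro _ _ _ _ ⟨g, rfl, rfl, rfl, w, hw, rfl⟩
    exact ⟨Q.smul (s1 hw) g, Q.smul (s2 hw) g, Q.smul (s3 hw) g⟩
  · have key : ∀ x y z w, [x, y, z, w].Nodup → ¬ Q G α β γ D x y z w →
        ∃ g : G, g • α = x ∧ g • β = y ∧ g • γ = z ∧ g⁻¹ • w ∈ E := by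
      intro x y z w h hq
      simp only [List.nodup_cons, List.mem_cons, not_or] at h
      obtain ⟨g, rfl, rfl, rfl⟩ := mv (x := x) (y := y) (z := z)
        (by simp [h.1.1, h.1.2.1, h.2.1.1])
      refine ⟨g, rfl, rfl, rfl, ((hc _).2 ⟨fun e => h.1.2.2.1 ?_, fun e => h.2.1.2.1 ?_,
        fun e => h.2.2.1.1 ?_⟩).resolve_left fun e => hq ((Q_iff hD g).2 (mem_smul.2 e))⟩ <;>
      rw [e, smul_inv_smul]
    intro x y z w x' y' z' w' h h' hq hq'
    obtain ⟨g, rfl, rfl, rfl, hw⟩ := key x y z w h hq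
    obtain ⟨g', rfl, rfl, rfl, hw'⟩ := key x' y' z' w' h' hq'
    obtain ⟨l, hl, e⟩ := hE.2 _ hw _ hw'
    obtain ⟨l1, l2, l3⟩ := memL.1 hl
    exact ⟨g' * l * g⁻¹, by simp [mul_smul, l1], by simp [mul_smul, l2], by simp [mul_smul, l3],
      by rw [mul_smul, mul_smul, e, smul_inv_smul]⟩
  · obtain ⟨w0, hw0, v0, hv0, hne⟩ := (Set.one_lt_ncard (hfin D)).1 (by omega)
    have key : ∀ x y z w v, Q G α β γ D x y z w → Q G α β γ D x y z v → w ≠ v →
        ∃ g : G, g • α = x ∧ g • β = y ∧ g • w0 = w ∧ g • v0 = v := by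
      rintro _ _ _ _ v' ⟨g, rfl, rfl, rfl, w, hw, rfl⟩ hv' hn
      obtain ⟨v, hv, rfl⟩ := (Q_iff hD g).1 hv'
      obtain ⟨l, hl, e1, e2⟩ := hD2.two hw0 hv0 hw hv hne (fun e => hn (by rw [e]))
      obtain ⟨l1, l2, -⟩ := memL.1 hl
      exact ⟨g * l, by rw [mul_smul, l1], by rw [mul_smul, l2], by rw [mul_smul, e1],
        by rw [mul_smul, e2]⟩
    by_cases hq : Q G α β γ D α β w0 v0
    · refine Or.inl fun x y z w v h h' hn => ?_
      obtain ⟨g, rfl, rfl, rfl, rfl⟩ := key x y z w v h h' hn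
      exact hq.smul g
    · refine Or.inr fun x y z w v h h' h'' => hq ?_
      have := nd _ _ _ _ h''
      simp only [List.nodup_cons, List.mem_cons, not_or] at this
      obtain ⟨g, rfl, rfl, rfl, rfl⟩ := key x y z w v h h' this.2.2.1.1
      simpa using h''.smul g⁻¹
  · intro x hx y hy z hz h
    obtain ⟨g, rfl, rfl, rfl⟩ := mv h
    obtain ⟨n, nF, hn⟩ := hB.witt (X := {α, β, γ})
      (by simp [Set.insert_subset_iff, hα, hβ, hγ]) g (by simp [hx, hy, hz])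
    rw [hDF, ← ncard_smul n (D ∩ F), ← hn α (by simp), ← hn β (by simp), ← hn γ (by simp),
      Set.smul_set_inter, nF]
    congr 3
    exact Set.ext fun w => ⟨fun h => ⟨h.2, (Q_iff hD n).2 h.1⟩, fun h => ⟨(Q_iff hD n).1 h.2, h.1⟩⟩
  · have h1 := Set.ncard_add_ncard_compl ({α, β, γ} : Set Ω)
    rw [← hDE, Set.ncard_union_eq hdis, Set.ncard_eq_three.2 ⟨α, β, γ, hd'.1, hd'.2.1, hd'.2.2, rfl⟩]
      at h1
    omega

end H63.Pnm
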