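import Cfsg.Agent.Lib.Pnm.Defs

namespace H63.Pnm
open Pointwise

namespace C12B

theorem nd3 {Ω : Type*} {x y z : Ω} : [x, y, z].Nodup ↔ x ≠ y ∧ x ≠ z ∧ y ≠ z := by
  simp [and_assoc]

theorem nd4 {Ω : Type*} {x y z w : Ω} :
    [x, y, z, w].Nodup ↔ x ≠ y ∧ x ≠ z ∧ x ≠ w ∧ y ≠ z ∧ y ≠ w ∧ z ≠ w := by
  simp [and_assoc]

/-- the clique case -/
theorem clique {Ω : Type*} [Finite Ω] {F : Set Ω} (hn : Nat.card Ω = 2 * F.ncard) {a : ℕ}
    (h3a : 3 ≤ a) {α β : Ω} (hα : α ∈ F) (hβ : β ∈ F) (hαβ : α ≠ β) {R : Ω → Ω → Prop}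
    (nd : ∀ z w, R z w → [α, β, z, w].Nodup) (sy : ∀ z w, R z w → R w z)
    (tr : ∀ z w v, R z w → R z v → w ≠ v → R w v)
    (ca : ∀ z, [α, β, z].Nodup → {w | R z w}.ncard = a)
    (cF : ∀ z ∈ F, [α, β, z].Nodup → a = 2 * {w ∈ F | R z w}.ncard + 1) : False := by
  have mO : ∀ z, z ∈ ({α, β} : Set Ω)ᶜ ↔ z ≠ α ∧ z ≠ β := fun z => by simp
  have n3 : ∀ z ∈ ({α, β} : Set Ω)ᶜ, [α, β, z].Nodup := fun z hz =>
    nd3.2 ⟨hαβ, ((mO z).1 hz).1.symm, ((mO z).1 hz).2.symm⟩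
  have inO : ∀ z w, R z w → w ∈ ({α, β} : Set Ω)ᶜ := fun z w h =>
    (mO w).2 ⟨(nd4.1 (nd z w h)).2.2.1.symm, (nd4.1 (nd z w h)).2.2.2.2.1.symm⟩
  have irr : ∀ z, ¬ R z z := fun z h => (nd4.1 (nd z z h)).2.2.2.2.2 rfl
  have key := clq (O := ({α, β} : Set Ω)ᶜ) (F := F) (Set.toFinite _) (fun z w => z = w ∨ R z w)
    (fun _ _ => Or.inl rfl) (fun x _ y _ h => h.imp Eq.symm (sy x y)) ?_ (e := a + 1) ?_ ?_
  · have h1 := Set.ncard_add_ncard_compl ({α, β} : Set Ω)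
    rw [Set.ncard_pair hαβ] at h1
    have h2 := Set.ncard_inter_add_ncard_sdiff_eq_ncard F ({α, β} : Set Ω)
    rw [Set.inter_eq_right.2 (Set.pair_subset hα hβ), Set.ncard_pair hαβ, Set.sdiff_eq,
      Set.inter_comm] at h2
    omega
  · rintro x _ y _ z _ (rfl | h1) h2
    · exact h2
    rcases h2 with rfl | h2
    · exact Or.inr h1
    by_cases e : x = z
    · exact Or.inl e
    · exact Or.inr (tr y x z (sy x y h1) h2 e)
  · intro x hx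
    rw [← ca x (n3 x hx), ← Set.ncard_insert_of_notMem (s := {w | R x w}) (irr x)]
    congr 1
    ext y
    constructor
    · rintro ⟨-, rfl | h⟩
      · exact Or.inl rfl
      · exact Or.inr h
    · rintro (rfl | h)
      · exact ⟨hx, Or.inl rfl⟩
      · exact ⟨inO x y h, Or.inr h⟩
  · intro x hx hF
    have e : {y ∈ ({α, β} : Set Ω)ᶜ ∩ F | x = y ∨ R x y} = insert x {w ∈ F | R x w} := by
      ext y
      constructor
      · rintro ⟨⟨-, h0⟩, rfl | h⟩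
        · exact Or.inl rfl
        · exact Or.inr ⟨h0, h⟩
      · rintro (rfl | h)
        · exact ⟨⟨hx, hF⟩, Or.inl rfl⟩
        · exact ⟨⟨inO x y h.2, h.1⟩, Or.inr h.2⟩
    rw [e, Set.ncard_insert_of_notMem (s := {w ∈ F | R x w}) (fun h => irr x h.2)]
    have := cF x hF (n3 x hx)
    omega

theorem arith {f a μ p : ℕ} (h3a : 3 ≤ a) (h1 : 3 * μ ≤ a) (h2 : 2 * a + 4 ≤ μ + 2 * f)
    (hp : 2 * p = a + 1) (h3 : (f - 2) * p ≤ f * μ) : False := by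
  have h5 : 5 ≤ f := by omega
  obtain ⟨e, rfl⟩ : ∃ e, f = e + 5 := ⟨f - 5, by omega⟩
  rw [show e + 5 - 2 = e + 3 by omega] at h3
  rcases Nat.eq_zero_or_pos e with rfl | h0
  · omega
  · nlinarith

end C12B

open C12B in
theorem c12_b {G Ω : Type*} [Group G] [MulAction G Ω] [Finite Ω] {K : Subgroup G}
    {F : Set Ω} (hB : Blk K F) (hn : Nat.card Ω = 2 * F.ncard) (hf : 3 ≤ F.ncard) {a : ℕ}
    (h3a : 3 ≤ a) {Q : Ω → Ω → Ω → Ω → Prop}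
    (hQ : (∀ x y z w, Q x y z w → [x, y, z, w].Nodup) ∧
      (∀ x y z w, Q x y z w → Q y x z w ∧ Q x z y w ∧ Q x y w z) ∧
      (∀ (g : G) x y z w, Q x y z w → Q (g • x) (g • y) (g • z) (g • w)) ∧
      (∀ x y z, [x, y, z].Nodup → {w | Q x y z w}.ncard = a) ∧
      (∀ x y z w x' y' z' w', [x, y, z, w].Nodup → [x', y', z', w'].Nodup → ¬ Q x y z w →
        ¬ Q x' y' z' w' → ∃ g : G, g • x = x' ∧ g • y = y' ∧ g • z = z' ∧ g • w = w') ∧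
      ((∀ x y z w v, Q x y z w → Q x y z v → w ≠ v → Q x y w v) ∨
        (∀ x y z w v, Q x y z w → Q x y z v → ¬ Q x y w v)) ∧
      (∀ x ∈ F, ∀ y ∈ F, ∀ z ∈ F, [x, y, z].Nodup → a = 2 * {w ∈ F | Q x y z w}.ncard + 1) ∧
      a + 3 < Nat.card Ω) : False := by
  obtain ⟨nd, sy, inv, ca, tr, di, cF, lt⟩ := hQ
  obtain ⟨α, β, γ, hα, hβ, hγ, hαβ, hαγ, hβγ⟩ := (Set.two_lt_ncard_iff (Set.toFinite F)).1 hf
  have s1 : ∀ {x y z w}, Q x y z w → Q y x z w := fun h => (sy _ _ _ _ h).1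
  have s2 : ∀ {x y z w}, Q x y z w → Q x z y w := fun h => (sy _ _ _ _ h).2.1
  have s3 : ∀ {x y z w}, Q x y z w → Q x y w z := fun h => (sy _ _ _ _ h).2.2
  have r : ∀ {x y z w}, Q x y z w → Q x w y z := fun h => s2 (s3 h)
  rcases di with di | di
  · exact clique hn h3a hα hβ hαβ (nd α β) (fun _ _ => s3) (di α β) (ca α β) (cF α hα β hβ)
  have n3 : [α, β, γ].Nodup := nd3.2 ⟨hαβ, hαγ, hβγ⟩
  -- a quadruple outside `Q`
  obtain ⟨δ, -, hδ⟩ := Set.exists_mem_notMem_of_ncard_lt_ncard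
    (s := {α, β, γ} ∪ {w | Q α β γ w}) (t := Set.univ) (by
      rw [Set.ncard_univ]
      refine (Set.ncard_union_le _ _).trans_lt ?_
      rw [ca α β γ n3, Set.ncard_eq_three.2 ⟨α, β, γ, hαβ, hαγ, hβγ, rfl⟩]
      omega) (Set.toFinite _)
  simp only [Set.mem_union, Set.mem_insert_iff, Set.mem_singleton_iff, Set.mem_ofPred_eq,
    not_or] at hδ
  obtain ⟨⟨d1, d2, d3⟩, nq⟩ := hδ
  have n4 : [α, β, γ, δ].Nodup := nd4.2 ⟨hαβ, hαγ, Ne.symm d1, hβγ, Ne.symm d2, Ne.symm d3⟩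
  obtain ⟨μ, hμ⟩ : ∃ μ, {ε | Q α β γ ε ∧ Q α β δ ε}.ncard = μ := ⟨_, rfl⟩
  have le : ∀ x y z w x' y' z' w', [x, y, z, w].Nodup → [x', y', z', w'].Nodup → ¬ Q x y z w →
      ¬ Q x' y' z' w' → {ε | Q x y z ε ∧ Q x y w ε}.ncard ≤ {ε | Q x' y' z' ε ∧ Q x' y' w' ε}.ncard := by
    intro x y z w x' y' z' w' h1 h2 h3 h4
    obtain ⟨g, rfl, rfl, rfl, rfl⟩ := tr x y z w x' y' z' w' h1 h2 h3 h4
    exact Set.ncard_le_ncard_of_injOn (g • ·) (fun ε h => ⟨inv g _ _ _ _ h.1, inv g _ _ _ _ h.2⟩)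
      (MulAction.injective g).injOn (Set.toFinite _)
  have cμ : ∀ x y z w, [x, y, z, w].Nodup → ¬ Q x y z w →
      {ε | Q x y z ε ∧ Q x y w ε}.ncard = μ := fun x y z w h1 h2 =>
    hμ ▸ le_antisymm (le _ _ _ _ _ _ _ _ h1 n4 h2 nq) (le _ _ _ _ _ _ _ _ n4 h1 nq h2)
  have h1 : 3 * μ ≤ a := by
    have e2 := cμ α γ β δ (nd4.2 ⟨hαγ, hαβ, Ne.symm d1, hβγ.symm, Ne.symm d3, Ne.symm d2⟩)
      fun h => nq (s2 h)
    have e3 := cμ β γ α δ (nd4.2 ⟨hβγ, hαβ.symm, Ne.symm d2, hαγ.symm, Ne.symm d3, Ne.symm d1⟩)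
      fun h => nq (s1 (s2 h))
    have u1 := Set.ncard_union_eq (s := {ε | Q α β γ ε ∧ Q α β δ ε})
      (t := {ε | Q α γ β ε ∧ Q α γ δ ε})
      (Set.disjoint_left.2 fun ε h k => di α ε β γ δ (r h.1) (r h.2) (r k.2))
    have u2 := Set.ncard_union_eq
      (s := {ε | Q α β γ ε ∧ Q α β δ ε} ∪ {ε | Q α γ β ε ∧ Q α γ δ ε})
      (t := {ε | Q β γ α ε ∧ Q β γ δ ε})
      (Set.disjoint_left.2 fun ε h k => h.elim
        (fun h => di β ε α γ δ (r (s1 h.1)) (r (s1 h.2)) (r k.2))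
        (fun h => di γ ε α β δ (r (s1 h.1)) (r (s1 h.2)) (r (s1 k.2))))
    have u3 := Set.ncard_le_ncard (s := {ε | Q α β γ ε ∧ Q α β δ ε} ∪ {ε | Q α γ β ε ∧ Q α γ δ ε} ∪
      {ε | Q β γ α ε ∧ Q β γ δ ε}) (t := {w | Q α β γ w}) (by
        rintro ε ((h | h) | h)
        · exact h.1
        · exact s2 h.1
        · exact s1 (s2 h.1))
    rw [ca α β γ n3] at u3
    omega
  have h2 : 2 * a + 4 ≤ μ + 2 * F.ncard := by
    have u1 := Set.ncard_union_add_ncard_inter {w | Q α β γ w} {w | Q α β δ w}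
    rw [ca α β γ n3, ca α β δ (nd3.2 ⟨hαβ, Ne.symm d1, Ne.symm d2⟩),
      show {w | Q α β γ w} ∩ {w | Q α β δ w} = {ε | Q α β γ ε ∧ Q α β δ ε} from rfl, hμ] at u1
    have u2 := Set.ncard_le_ncard (s := {w | Q α β γ w} ∪ {w | Q α β δ w})
      (t := ({α, β, γ, δ} : Set Ω)ᶜ) (by
        rintro ε (h | h) (rfl | rfl | rfl | rfl)
        · exact (nd4.1 (nd _ _ _ _ h)).2.2.1 rfl
        · exact (nd4.1 (nd _ _ _ _ h)).2.2.2.2.1 rfl
        · exact (nd4.1 (nd _ _ _ _ h)).2.2.2.2.2 rfl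
        · exact nq h
        · exact (nd4.1 (nd _ _ _ _ h)).2.2.1 rfl
        · exact (nd4.1 (nd _ _ _ _ h)).2.2.2.2.1 rfl
        · exact nq (s3 h)
        · exact (nd4.1 (nd _ _ _ _ h)).2.2.2.2.2 rfl)
    have u3 := Set.ncard_add_ncard_compl ({α, β, γ, δ} : Set Ω)
    have u4 : ({α, β, γ, δ} : Set Ω).ncard = 4 := by
      rw [Set.ncard_insert_of_notMem (by simp [hαβ, hαγ, Ne.symm d1]),
        Set.ncard_eq_three.2 ⟨β, γ, δ, hβγ, Ne.symm d2, Ne.symm d3, rfl⟩]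
    omega
  obtain ⟨p, hp⟩ : ∃ p, 2 * p = a + 1 := ⟨_, by rw [cF α hα β hβ γ hγ n3, mul_add (2 : ℕ) _ 1]⟩
  have h3 := dcount_le (A := F \ {α, β}) (B := Fᶜ) (Set.toFinite _) (Set.toFinite _)
    (fun z y => Q α β z y) (p := p) (q := μ) (fun z hz => ?_) (fun y hy => ?_)
  · have u1 := Set.ncard_add_ncard_compl F
    have u2 := Set.ncard_inter_add_ncard_sdiff_eq_ncard F ({α, β} : Set Ω)
    rw [Set.inter_eq_right.2 (Set.pair_subset hα hβ), Set.ncard_pair hαβ] at u2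
    rw [show (F \ {α, β}).ncard = F.ncard - 2 by omega, show Fᶜ.ncard = F.ncard by omega] at h3
    exact arith h3a h1 h2 hp h3
  · have nz : [α, β, z].Nodup :=
      nd3.2 ⟨hαβ, fun e => hz.2 (Or.inl e.symm), fun e => hz.2 (Or.inr e.symm)⟩
    have u1 := Set.ncard_inter_add_ncard_sdiff_eq_ncard {w | Q α β z w} F
    have u2 := cF α hα β hβ z hz.1 nz
    rw [ca α β z nz, show {w | Q α β z w} ∩ F = {w ∈ F | Q α β z w} from Set.ext fun _ => and_comm,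
      show {w | Q α β z w} \ F = {w ∈ Fᶜ | Q α β z w} from Set.ext fun _ => and_comm] at u1
    omega
  · obtain ⟨k, hk, e⟩ : ∃ k ∈ K, k • y ≠ y := by
      by_contra h
      push Not at h
      exact hy ((hB.1 y).2 h)
    have hy' : k • y ∉ F := fun h => hy ((hB.smul_mem_iff hk).1 h)
    have sub : ∀ z ∈ {z ∈ F \ {α, β} | Q α β z y}, Q α β y z ∧ Q α β (k • y) z := fun z hz => by
      have := inv k _ _ _ _ (s3 hz.2)
      rw [hB.fix hk hα, hB.fix hk hβ, hB.fix hk hz.1.1] at this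
      exact ⟨s3 hz.2, this⟩
    by_cases hq : Q α β y (k • y)
    · rw [Set.eq_empty_of_forall_notMem fun z hz => di α β y _ z hq (sub z hz).1 (sub z hz).2]
      simp
    · rw [← cμ α β y (k • y) (nd4.2 ⟨hαβ, fun e => hy (e ▸ hα), fun e => hy' (e ▸ hα),
        fun e => hy (e ▸ hβ), fun e => hy' (e ▸ hβ), e.symm⟩) hq]
      exact Set.ncard_le_ncard sub

end H63.Pnm
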