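import Mathlib

/-! Pronormal subgroups of transitive groups (S3399): definitions and basic lemmas. -/

namespace H63.Pnm
open Pointwise

variable {G Ω : Type*} [Group G] [MulAction G Ω]

/-- `H` preserves `O` and is transitive on it. -/
def Tr (H : Subgroup G) (O : Set Ω) : Prop :=
  (∀ h ∈ H, ∀ x ∈ O, h • x ∈ O) ∧ ∀ x ∈ O, ∀ y ∈ O, ∃ h ∈ H, h • x = y

/-- `H` is `k`-transitive on `O`. -/
def Tk (H : Subgroup G) (O : Set Ω) (k : ℕ) : Prop :=
  ∀ l l' : List Ω, l.length = k → l'.length = k → l.Nodup → l'.Nodup → (∀ x ∈ l, x ∈ O) →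
    (∀ x ∈ l', x ∈ O) → ∃ h ∈ H, l.map (fun x => h • x) = l'

/-- `H` moves any small subset of `O` into any larger one. -/
def Hom (H : Subgroup G) (O : Set Ω) : Prop :=
  ∀ A B : Set Ω, A ⊆ O → B ⊆ O → A.ncard ≤ B.ncard → A.ncard + 2 ≤ O.ncard → ∃ h ∈ H, h • A ⊆ B

/-- `F` is the fixed point set of `K`, and conjugates of `K` are conjugate (as far as `F` sees)
in every overgroup of both. -/
def Blk (K : Subgroup G) (F : Set Ω) : Prop :=
  (∀ x, x ∈ F ↔ ∀ k ∈ K, k • x = x) ∧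
    ∀ (g : G) (H : Subgroup G), K ≤ H → (∀ k ∈ K, g * k * g⁻¹ ∈ H) → ∃ w ∈ H, w • F = g • F

theorem eqns_defs (H : Subgroup G) (O : Set Ω) (k : ℕ) :
    Tr H O = Tr H O ∧ Tk H O k = Tk H O k ∧ Hom H O = Hom H O ∧ Blk H O = Blk H O :=
  ⟨(Tr.eq_1 H O).trans (Tr.eq_1 H O).symm, (Tk.eq_1 H O k).trans (Tk.eq_1 H O k).symm,
    (Hom.eq_1 H O).trans (Hom.eq_1 H O).symm, (Blk.eq_1 H O).trans (Blk.eq_1 H O).symm⟩

theorem ncard_smul (g : G) (A : Set Ω) : (g • A).ncard = A.ncard :=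
  Set.ncard_smul_set g A

theorem mem_smul {g : G} {A : Set Ω} {x : Ω} : x ∈ g • A ↔ g⁻¹ • x ∈ A :=
  Set.mem_smul_set_iff_inv_smul_mem

theorem smul_mem {g : G} {A : Set Ω} {x : Ω} : g • x ∈ g • A ↔ x ∈ A :=
  Set.smul_mem_smul_set_iff

variable {K : Subgroup G} {F : Set Ω}

theorem Blk.fix (hB : Blk K F) {k : G} (hk : k ∈ K) {x : Ω} (hx : x ∈ F) : k • x = x :=
  (hB.1 x).1 hx k hk

theorem Blk.smul_mem_iff (hB : Blk K F) {k : G} (hk : k ∈ K) {x : Ω} : k • x ∈ F ↔ x ∈ F := by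
  constructor
  · intro h
    have := hB.fix (inv_mem hk) h
    rw [inv_smul_smul] at this
    rwa [this]
  · intro h; rwa [hB.fix hk h]

theorem Blk.smul_eq (hB : Blk K F) {k : G} (hk : k ∈ K) : k • F = F := by
  ext x; rw [mem_smul, hB.smul_mem_iff (inv_mem hk)]

/-- conjugates fix their block -/
theorem Blk.fix_conj (hB : Blk K F) {k : G} (hk : k ∈ K) {g : G} {x : Ω} (hx : x ∈ g • F) :
    (g * k * g⁻¹) • x = x := by
  rw [mul_smul, mul_smul, hB.fix hk (mem_smul.1 hx), smul_inv_smul]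

theorem Blk.mem_conj (hB : Blk K F) {g : G} {x : Ω} :
    x ∈ g • F ↔ ∀ k ∈ K, (g * k * g⁻¹) • x = x := by
  refine ⟨fun hx k hk => hB.fix_conj hk hx, fun h => mem_smul.2 ((hB.1 _).2 fun k hk => ?_)⟩
  have := h k hk
  rw [mul_smul, mul_smul, ← eq_inv_smul_iff] at this
  exact this

/-- the conjugate pair `(g K g⁻¹, g • F)` -/
theorem Blk.conj (hB : Blk K F) (g : G) : Blk (K.map (MulAut.conj g).toMonoidHom) (g • F) := by
  refine ⟨fun x => ?_, fun a H h1 h2 => ?_⟩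
  · rw [hB.mem_conj]
    constructor
    · rintro h _ ⟨k, hk, rfl⟩; exact h k hk
    · intro h k hk; exact h _ ⟨k, hk, rfl⟩
  · obtain ⟨w, hw, e⟩ := hB.2 (g⁻¹ * a * g) (H.comap (MulAut.conj g).toMonoidHom)
      (fun k hk => h1 ⟨k, hk, rfl⟩) (fun k hk => by
        have := h2 _ ⟨k, hk, rfl⟩
        simp only [Subgroup.mem_comap, MulEquiv.coe_toMonoidHom, MulAut.conj_apply] at this ⊢
        convert this using 1; group)
    refine ⟨g * w * g⁻¹, hw, ?_⟩
    rw [smul_smul, inv_mul_cancel_right, mul_smul, e, smul_smul, smul_smul]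
    congr 1; group

/-- two blocks: some element of any overgroup of the two conjugates maps one to the other -/
theorem Blk.two (hB : Blk K F) (a b : G) (H : Subgroup G) (ha : ∀ k ∈ K, a * k * a⁻¹ ∈ H)
    (hb : ∀ k ∈ K, b * k * b⁻¹ ∈ H) : ∃ w ∈ H, w • a • F = b • F := by
  obtain ⟨w, hw, e⟩ := (hB.conj a).2 (b * a⁻¹) H (by rintro _ ⟨k, hk, rfl⟩; exact ha k hk)
    (by
      rintro _ ⟨k, hk, rfl⟩
      have := hb k hk
      simp only [MulEquiv.coe_toMonoidHom, MulAut.conj_apply]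
      convert this using 1; group)
  exact ⟨w, hw, by rw [e, smul_smul, inv_mul_cancel_right]⟩

/-- blocks through `X` are conjugate under the pointwise stabiliser of `X` -/
theorem Blk.through (hB : Blk K F) {X : Set Ω} (a b : G) (ha : X ⊆ a • F) (hb : X ⊆ b • F) :
    ∃ w : G, (∀ x ∈ X, w • x = x) ∧ w • a • F = b • F := by
  obtain ⟨w, hw, e⟩ := hB.two a b (fixingSubgroup G X)
    (fun k hk => (mem_fixingSubgroup_iff G).2 fun x hx => hB.fix_conj hk (ha hx))
    (fun k hk => (mem_fixingSubgroup_iff G).2 fun x hx => hB.fix_conj hk (hb hx))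
  exact ⟨w, (mem_fixingSubgroup_iff G).1 hw, e⟩

/-- Witt: a map of a subset of `F` into `F` induced by `G` is induced by the stabiliser of `F` -/
theorem Blk.witt (hB : Blk K F) {X : Set Ω} (hX : X ⊆ F) (g : G) (hg : ∀ x ∈ X, g • x ∈ F) :
    ∃ n : G, n • F = F ∧ ∀ x ∈ X, n • x = g • x := by
  obtain ⟨w, hw, e⟩ := hB.through (X := X) 1 g⁻¹ (by simpa using hX)
    (fun x hx => mem_smul.2 (by simpa using hg x hx))
  refine ⟨g * w, ?_, fun x hx => by rw [mul_smul, hw x hx]⟩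
  rw [one_smul] at e
  rw [mul_smul, e, smul_inv_smul]

/-- Witt's lemma inside an overgroup `H` of `K` -/
theorem Blk.wittH (hB : Blk K F) {H : Subgroup G} (hK : K ≤ H) {X : Set Ω} (hX : X ⊆ F) {g : G}
    (hgH : g ∈ H) (hg : ∀ x ∈ X, g • x ∈ F) :
    ∃ n ∈ H, n • F = F ∧ ∀ x ∈ X, n • x = g • x := by
  obtain ⟨w, hw, e⟩ := hB.2 g⁻¹ (H ⊓ fixingSubgroup G X)
    (fun k hk => ⟨hK hk, (mem_fixingSubgroup_iff G).2 fun x hx => hB.fix hk (hX hx)⟩)
    (fun k hk => ⟨H.mul_mem (H.mul_mem (H.inv_mem hgH) (hK hk)) (H.inv_mem (H.inv_mem hgH)),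
      (mem_fixingSubgroup_iff G).2 fun x hx =>
        hB.fix_conj hk (mem_smul.2 (by simpa using hg x hx))⟩)
  refine ⟨g * w, mul_mem hgH hw.1, by rw [mul_smul, e, smul_inv_smul], fun x hx => ?_⟩
  rw [mul_smul, (mem_fixingSubgroup_iff G).1 hw.2 x hx]

/-- no non-trivial orbit of a conjugate of `K` lies in a block -/
theorem Blk.orb (hB : Blk K F) (a b : G) {d : Ω} (hd : d ∉ a • F)
    (h : ∀ k ∈ K, (a * k * a⁻¹) • d ∈ b • F) : False := by
  let O : Set Ω := {x | ∃ k ∈ K, (a * k * a⁻¹) • d = x}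
  have key : ∀ g : G, (∀ x ∈ O, g • x ∈ O) → (∀ x ∈ O, g⁻¹ • x ∈ O) →
      g ∈ MulAction.stabilizer G O := by
    intro g h1 h2
    rw [MulAction.mem_stabilizer_iff]
    ext x
    rw [mem_smul]
    exact ⟨fun hx => by simpa using h1 _ hx, h2 x⟩
  have h1 : ∀ k ∈ K, ∀ x ∈ O, (a * k * a⁻¹) • x ∈ O := by
    rintro k hk _ ⟨k', hk', rfl⟩
    exact ⟨k * k', mul_mem hk hk', by rw [smul_smul]; congr 1; group⟩
  have h2 : ∀ k ∈ K, ∀ x ∈ O, (b * k * b⁻¹) • x ∈ O := by
    rintro k hk _ ⟨k', hk', rfl⟩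
    rw [hB.fix_conj hk (h k' hk')]
    exact ⟨k', hk', rfl⟩
  obtain ⟨w, hw, e⟩ := hB.two b a (MulAction.stabilizer G O)
    (fun k hk => key _ (h2 k hk) (fun x hx => by
      have := h2 k⁻¹ (inv_mem hk) x hx
      convert this using 2; group))
    (fun k hk => key _ (h1 k hk) (fun x hx => by
      have := h1 k⁻¹ (inv_mem hk) x hx
      convert this using 2; group))
  have hdO : d ∈ w • O := by
    rw [MulAction.mem_stabilizer_iff.1 hw]; exact ⟨1, one_mem _, by simp⟩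
  apply hd
  rw [← e]
  obtain ⟨x, ⟨k, hk, rfl⟩, hx⟩ := hdO
  exact ⟨_, h k hk, hx⟩

/-- the complement of `F` is not a block -/
theorem Blk.ne_compl (hB : Blk K F) (hF : F.Nonempty) (g : G) : g • F ≠ Fᶜ := by
  intro e
  obtain ⟨d, hd⟩ := hF
  refine hB.orb g 1 (d := d) (by rw [e]; simpa using hd) fun k hk => ?_
  rw [one_smul]
  by_contra hn
  have h1 : (g * k * g⁻¹) • d ∈ g • F := by rw [e]; exact hn
  have h2 := hB.fix_conj (inv_mem hk) h1
  rw [smul_smul, show g * k⁻¹ * g⁻¹ * (g * k * g⁻¹) = 1 by group, one_smul] at h2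
  exact hn (h2 ▸ hd)

/-- `K` normalises no other block -/
theorem Blk.eq_of_norm (hB : Blk K F) (g : G) (h : ∀ k ∈ K, k • g • F = g • F) : g • F = F := by
  obtain ⟨w, hw, e⟩ := hB.2 g (MulAction.stabilizer G (g • F)) (fun k hk => h k hk)
    (fun k hk => by
      rw [MulAction.mem_stabilizer_iff, mul_smul, mul_smul, inv_smul_smul, hB.smul_eq hk])
  have := MulAction.mem_stabilizer_iff.1 hw
  rw [← e] at this
  nth_rewrite 2 [e] at this
  rw [← e]
  have h3 : w • w • F = w • F := by rw [this, e]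
  exact smul_left_cancel w h3

theorem Blk.tk (hB : Blk K F) {k : ℕ} (h : Tk (⊤ : Subgroup G) (Set.univ : Set Ω) k) :
    Tk (MulAction.stabilizer G F) F k := by
  intro l l' h1 h2 h3 h4 h5 h6
  obtain ⟨g, -, e⟩ := h l l' h1 h2 h3 h4 (by simp) (by simp)
  obtain ⟨n, hn, hn'⟩ := hB.witt (X := {x | x ∈ l}) h5 g
    (fun x hx => h6 _ (e ▸ List.mem_map.2 ⟨x, hx, rfl⟩))
  exact ⟨n, hn, e ▸ List.map_congr_left hn'⟩

theorem Tk.pred {H : Subgroup G} {O : Set Ω} {k : ℕ} (h : Tk H O (k + 1)) (hk : k + 1 ≤ O.ncard) :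
    Tk H O k := by
  classical
  have ex : ∀ l : List Ω, l.length = k → ∃ x ∈ O, x ∉ l := by
    intro l hl
    by_contra hc
    push Not at hc
    have h1 : O ⊆ (l.toFinset : Set Ω) := fun x hx => by simpa using hc x hx
    have h2 := Set.ncard_le_ncard h1 (Finset.finite_toSet _)
    rw [Set.ncard_coe_finset] at h2
    have := List.toFinset_card_le l
    omega
  intro l l' h1 h2 h3 h4 h5 h6
  obtain ⟨x, hx, hxl⟩ := ex l h1
  obtain ⟨y, hy, hyl⟩ := ex l' h2
  obtain ⟨g, hg, e⟩ := h (x :: l) (y :: l') (by simp [h1]) (by simp [h2])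
    (List.nodup_cons.2 ⟨hxl, h3⟩) (List.nodup_cons.2 ⟨hyl, h4⟩)
    (by simpa using ⟨hx, h5⟩) (by simpa using ⟨hy, h6⟩)
  exact ⟨g, hg, (List.cons.inj e).2⟩

theorem Tk.mono {H : Subgroup G} {O : Set Ω} {k j : ℕ} (h : Tk H O k) (hk : k ≤ O.ncard)
    (hj : j ≤ k) : Tk H O j := by
  induction k with
  | zero => rwa [Nat.le_zero.1 hj]
  | succ k ih =>
    rcases Nat.lt_or_ge k j with h1 | h1
    · rwa [show j = k + 1 by omega]
    · exact ih (h.pred hk) (by omega) h1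

/-- a `k`-transitive group moves a set of size `≤ k` into any set that is at least as large -/
theorem Tk.move {H : Subgroup G} {O : Set Ω} {k : ℕ} (h : Tk H O k) (hk : k ≤ O.ncard)
    {A B : Set Ω} (hA : A ⊆ O) (hB : B ⊆ O) (hfA : A.Finite) (hAB : A.ncard ≤ B.ncard)
    (hAk : A.ncard ≤ k) : ∃ g ∈ H, g • A ⊆ B := by
  classical
  obtain ⟨C, hCB, hC⟩ := Set.exists_subset_card_eq hAB
  by_cases h0 : A.ncard = 0
  · rw [Set.ncard_eq_zero hfA] at h0
    exact ⟨1, one_mem _, by simp [h0]⟩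
  have hfC : C.Finite := Set.finite_of_ncard_ne_zero (by omega)
  obtain ⟨g, hg, e⟩ := h.mono hk hAk hfA.toFinset.toList hfC.toFinset.toList
    (by simp [Set.ncard_eq_toFinset_card A hfA]) (by simp [← hC, Set.ncard_eq_toFinset_card C hfC])
    (Finset.nodup_toList _) (Finset.nodup_toList _) (fun x hx => hA (by simpa using hx))
    (fun x hx => hB (hCB (by simpa using hx)))
  refine ⟨g, hg, ?_⟩
  rintro _ ⟨x, hx, rfl⟩
  have : g • x ∈ hfC.toFinset.toList := e ▸ List.mem_map.2 ⟨x, by simpa using hx, rfl⟩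
  exact hCB (by simpa using this)

theorem Tk.two {H : Subgroup G} {O : Set Ω} (h : Tk H O 2) {a b a' b' : Ω} (ha : a ∈ O)
    (hb : b ∈ O) (ha' : a' ∈ O) (hb' : b' ∈ O) (h1 : a ≠ b) (h2 : a' ≠ b') :
    ∃ g ∈ H, g • a = a' ∧ g • b = b' := by
  simpa using h [a, b] [a', b'] rfl rfl (by simpa using h1) (by simpa using h2)
    (by simp [ha, hb]) (by simp [ha', hb'])

theorem Tk.three {H : Subgroup G} {O : Set Ω} (h : Tk H O 3) {a b c a' b' c' : Ω} (ha : a ∈ O)
    (hb : b ∈ O) (hc : c ∈ O) (ha' : a' ∈ O) (hb' : b' ∈ O) (hc' : c' ∈ O)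
    (h1 : [a, b, c].Nodup) (h2 : [a', b', c'].Nodup) :
    ∃ g ∈ H, g • a = a' ∧ g • b = b' ∧ g • c = c' := by
  simpa using h [a, b, c] [a', b', c'] rfl rfl h1 h2 (by simp [ha, hb, hc])
    (by simp [ha', hb', hc'])

theorem Tk.four {H : Subgroup G} {O : Set Ω} (h : Tk H O 4) {a b c d a' b' c' d' : Ω}
    (ha : a ∈ O) (hb : b ∈ O) (hc : c ∈ O) (hd : d ∈ O) (ha' : a' ∈ O) (hb' : b' ∈ O)
    (hc' : c' ∈ O) (hd' : d' ∈ O) (h1 : [a, b, c, d].Nodup) (h2 : [a', b', c', d'].Nodup) :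
    ∃ g ∈ H, g • a = a' ∧ g • b = b' ∧ g • c = c' ∧ g • d = d' := by
  simpa using h [a, b, c, d] [a', b', c', d'] rfl rfl h1 h2 (by simp [ha, hb, hc, hd])
    (by simp [ha', hb', hc', hd'])

/-- the number of `h ∈ H` with `h • x = y` does not depend on `x, y ∈ O` -/
theorem Tr.card_eq {H : Subgroup G} {O : Set Ω} (h : Tr H O) {x y x' y' : Ω} (hx : x ∈ O)
    (hy : y ∈ O) (hx' : x' ∈ O) (hy' : y' ∈ O) :
    Nat.card {g : H // (g : G) • x = y} = Nat.card {g : H // (g : G) • x' = y'} := by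
  obtain ⟨a, ha, ea⟩ := h.2 x' hx' x hx
  obtain ⟨b, hb, eb⟩ := h.2 y hy y' hy'
  refine Nat.card_congr
    ⟨fun g => ⟨⟨b, hb⟩ * g.1 * ⟨a, ha⟩, ?_⟩, fun g => ⟨⟨b, hb⟩⁻¹ * g.1 * ⟨a, ha⟩⁻¹, ?_⟩,
      fun g => by ext; simp [mul_assoc], fun g => by ext; simp [mul_assoc]⟩
  · simp only [Subgroup.coe_mul, mul_smul, ea, g.2, eb]
  · simp only [Subgroup.coe_mul, Subgroup.coe_inv, mul_smul]
    rw [← ea, inv_smul_smul, g.2, ← eb, inv_smul_smul]

open Classical in
/-- averaging: `|O| ∑_{h ∈ H} |A ∩ h B| = |H| |A| |B|` -/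
theorem Tr.avg [Finite G] {H : Subgroup G} {O : Set Ω} (h : Tr H O) (hO : O.Finite) {A B : Set Ω}
    (hA : A ⊆ O) (hB : B ⊆ O) :
    O.ncard * ∑ᶠ g : H, (A ∩ (g : G) • B).ncard = Nat.card H * (A.ncard * B.ncard) := by
  haveI := Fintype.ofFinite H
  rcases O.eq_empty_or_nonempty with rfl | ⟨o, ho⟩
  · simp [Set.subset_empty_iff.1 hA]
  set c := Nat.card {g : H // (g : G) • o = o} with hc
  have hcnt : ∀ x ∈ O, ∀ y ∈ O, (Finset.univ.filter fun g : H => (g : G) • x = y).card = c := by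
    intro x hx y hy
    rw [hc, ← h.card_eq hx hy ho ho, Nat.card_eq_fintype_card, Fintype.card_subtype]
  have h1 : Nat.card H = O.ncard * c := by
    rw [Nat.card_eq_fintype_card, ← Finset.card_univ,
      Finset.card_eq_sum_card_fiberwise (f := fun g : H => (g : G) • o) (t := hO.toFinset)
        (fun g _ => by simpa using h.1 _ g.2 o ho),
      Finset.sum_congr rfl (fun y hy => hcnt o ho y (by simpa using hy)), Finset.sum_const,
      Set.ncard_eq_toFinset_card O hO, smul_eq_mul]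
  have hfA := hO.subset hA
  have hfB := hO.subset hB
  have h2 : ∀ g : H, (A ∩ (g : G) • B).ncard =
      ∑ a ∈ hfA.toFinset, ∑ b ∈ hfB.toFinset, if (g : G) • b = a then 1 else 0 := by
    intro g
    have e : A ∩ (g : G) • B = (hfA.toFinset.filter fun a => (g : G)⁻¹ • a ∈ B : Finset Ω) := by
      ext a; simp [mem_smul]
    rw [e, Set.ncard_coe_finset, Finset.card_filter]
    refine Finset.sum_congr rfl fun a _ => ?_
    simp_rw [← eq_inv_smul_iff]
    rw [Finset.sum_ite_eq']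
    simp
  rw [finsum_eq_sum_of_fintype, Finset.sum_congr rfl fun g _ => h2 g, Finset.sum_comm,
    Finset.sum_congr rfl fun a ha => Finset.sum_comm]
  have h3 : ∀ a ∈ hfA.toFinset, ∀ b ∈ hfB.toFinset,
      (∑ g : H, if (g : G) • b = a then 1 else 0) = c := by
    intro a ha b hb
    rw [← Finset.card_filter, hcnt b (hB (by simpa using hb)) a (hA (by simpa using ha))]
  rw [Finset.sum_congr rfl fun a ha => Finset.sum_congr rfl fun b hb => h3 a ha b hb]
  simp only [Finset.sum_const, smul_eq_mul]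
  rw [h1, Set.ncard_eq_toFinset_card A hfA, Set.ncard_eq_toFinset_card B hfB]
  ring

/-- some translate meets `A` in at most the average -/
theorem Tr.exists_le [Finite G] {H : Subgroup G} {O : Set Ω} (h : Tr H O) (hO : O.Finite)
    {A B : Set Ω} (hA : A ⊆ O) (hB : B ⊆ O) :
    ∃ g ∈ H, O.ncard * (A ∩ g • B).ncard ≤ A.ncard * B.ncard := by
  haveI := Fintype.ofFinite H
  by_contra hc
  push Not at hc
  have := h.avg hO hA hB
  rw [finsum_eq_sum_of_fintype, Finset.mul_sum, Nat.card_eq_fintype_card, ← Finset.card_univ,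
    ← smul_eq_mul, ← Finset.sum_const] at this
  exact (Finset.sum_lt_sum_of_nonempty Finset.univ_nonempty fun (g : H) _ => hc g g.2).ne this.symm

/-- strict form of `Tr.exists_le` -/
theorem Tr.exists_lt [Finite G] {H : Subgroup G} {O : Set Ω} (h : Tr H O) (hO : O.Finite)
    {A B : Set Ω} (hA : A ⊆ O) (hB : B ⊆ O)
    (h1 : A.ncard * B.ncard < O.ncard * (A ∩ B).ncard) :
    ∃ g ∈ H, O.ncard * (A ∩ g • B).ncard < A.ncard * B.ncard := by
  haveI := Fintype.ofFinite H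
  by_contra hc
  push Not at hc
  have := h.avg hO hA hB
  rw [finsum_eq_sum_of_fintype, Finset.mul_sum, Nat.card_eq_fintype_card, ← Finset.card_univ,
    ← smul_eq_mul, ← Finset.sum_const] at this
  exact (Finset.sum_lt_sum (fun (g : H) _ => hc g g.2) ⟨1, Finset.mem_univ _, by simpa using h1⟩).ne
    this.symm

open Classical in
/-- double counting for a relation between two finite sets -/
theorem dcount {α β : Type*} {A : Set α} {B : Set β} (hA : A.Finite) (hB : B.Finite)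
    (r : α → β → Prop) :
    ∑ a ∈ hA.toFinset, {b ∈ B | r a b}.ncard = ∑ b ∈ hB.toFinset, {a ∈ A | r a b}.ncard := by
  have h1 : ∀ a, {b ∈ B | r a b}.ncard = ∑ b ∈ hB.toFinset, if r a b then 1 else 0 := by
    intro a
    rw [← Finset.card_filter, ← Set.ncard_coe_finset]
    congr 1; ext; simp
  have h2 : ∀ b, {a ∈ A | r a b}.ncard = ∑ a ∈ hA.toFinset, if r a b then 1 else 0 := by
    intro b
    rw [← Finset.card_filter, ← Set.ncard_coe_finset]
    congr 1; ext; simp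
  simp_rw [h1, h2]
  exact Finset.sum_comm

/-- double counting, regular case -/
theorem dcount_eq {α β : Type*} {A : Set α} {B : Set β} (hA : A.Finite) (hB : B.Finite)
    (r : α → β → Prop) {p q : ℕ} (hp : ∀ a ∈ A, {b ∈ B | r a b}.ncard = p)
    (hq : ∀ b ∈ B, {a ∈ A | r a b}.ncard = q) : A.ncard * p = B.ncard * q := by
  have := dcount hA hB r
  rw [Finset.sum_congr rfl fun a ha => hp a (by simpa using ha),
    Finset.sum_congr rfl fun b hb => hq b (by simpa using hb)] at this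
  simpa [Set.ncard_eq_toFinset_card A hA, Set.ncard_eq_toFinset_card B hB] using this

/-- double counting, inequality -/
theorem dcount_le {α β : Type*} {A : Set α} {B : Set β} (hA : A.Finite) (hB : B.Finite)
    (r : α → β → Prop) {p q : ℕ} (hp : ∀ a ∈ A, p ≤ {b ∈ B | r a b}.ncard)
    (hq : ∀ b ∈ B, {a ∈ A | r a b}.ncard ≤ q) : A.ncard * p ≤ B.ncard * q := by
  have h := dcount hA hB r
  have h1 := Finset.card_nsmul_le_sum hA.toFinset _ p fun a ha => hp a (by simpa using ha)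
  have h2 := Finset.sum_le_card_nsmul hB.toFinset _ q fun b hb => hq b (by simpa using hb)
  rw [Set.ncard_eq_toFinset_card A hA, Set.ncard_eq_toFinset_card B hB]
  simp only [smul_eq_mul] at h1 h2
  omega

/-- an equivalence relation on `O` with classes of size `e`, each class through a point of `F`
being half in `F`: then `|O| = 2 |O ∩ F|` or `|O| ≥ 2 |O ∩ F| + e`. -/
theorem clq {α : Type*} {O F : Set α} (hO : O.Finite) (r : α → α → Prop)
    (hr : ∀ x ∈ O, r x x) (hs : ∀ x ∈ O, ∀ y ∈ O, r x y → r y x)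
    (ht : ∀ x ∈ O, ∀ y ∈ O, ∀ z ∈ O, r x y → r y z → r x z) {e : ℕ}
    (he : ∀ x ∈ O, {y ∈ O | r x y}.ncard = e)
    (hF : ∀ x ∈ O, x ∈ F → e = 2 * {y ∈ O ∩ F | r x y}.ncard) :
    O.ncard = 2 * (O ∩ F).ncard ∨ 2 * (O ∩ F).ncard + e ≤ O.ncard := by
  rcases Nat.eq_zero_or_pos e with h0 | h0
  · left
    rcases O.eq_empty_or_nonempty with rfl | ⟨o, ho⟩
    · simp
    · have := he o ho
      rw [h0, Set.ncard_eq_zero (hO.subset fun _ h => h.1)] at this
      exact absurd (show o ∈ {y ∈ O | r o y} from ⟨ho, hr o ho⟩) (by rw [this]; simp)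
  set D : Set α := {y ∈ O | ∃ x ∈ O ∩ F, r x y} with hD
  have hDO : D ⊆ O := fun _ h => h.1
  have h1 : (O ∩ F).ncard * e = D.ncard * (e / 2) := by
    refine dcount_eq (hO.subset Set.inter_subset_left) (hO.subset hDO) r (fun x hx => ?_)
      (fun y hy => ?_)
    · rw [← he x hx.1]; congr 1; ext y
      exact ⟨fun h => ⟨h.1.1, h.2⟩, fun h => ⟨⟨h.1, x, hx, h.2⟩, h.2⟩⟩
    · obtain ⟨hy, x, hx, hxy⟩ := hy
      have := hF x hx.1 hx.2
      rw [show {a ∈ O ∩ F | r a y} = {y ∈ O ∩ F | r x y} from ?_]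
      · omega
      ext z
      exact ⟨fun h => ⟨h.1, ht _ hx.1 _ hy _ h.1.1 hxy (hs _ h.1.1 _ hy h.2)⟩,
        fun h => ⟨h.1, ht _ h.1.1 _ hx.1 _ hy (hs _ hx.1 _ h.1.1 h.2) hxy⟩⟩
  have h2 : D.ncard = 2 * (O ∩ F).ncard := by
    rcases (O ∩ F).eq_empty_or_nonempty with h | ⟨x, hx⟩
    · have : D = ∅ := by rw [hD, h]; simp
      rw [this, h]; simp
    · have := hF x hx.1 hx.2
      set c := {y ∈ O ∩ F | r x y}.ncard
      rw [this, show 2 * c / 2 = c by omega] at h1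
      have hc : 0 < c := by omega
      apply Nat.eq_of_mul_eq_mul_right hc
      rw [← h1]; ring
  by_cases h3 : O ⊆ D
  · left; rw [← h2, Set.Subset.antisymm h3 hDO]
  · right
    obtain ⟨y, hy, hyD⟩ := Set.not_subset.1 h3
    have hd : Disjoint D {z ∈ O | r y z} := Set.disjoint_left.2 fun z hz hz' => hyD <| by
      obtain ⟨hz, x, hx, hxz⟩ := hz
      exact ⟨hy, x, hx, ht _ hx.1 _ hz _ hy hxz (hs _ hy _ hz hz'.2)⟩
    rw [← h2, ← he y hy, ← Set.ncard_union_eq hd (hO.subset hDO) (hO.subset fun _ h => h.1)]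
    exact Set.ncard_le_ncard (Set.union_subset hDO fun _ h => h.1) hO

end H63.Pnm
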