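import Cfsg.Agent.Lib.Pnm.Defs

namespace H63.Pnm
open Pointwise

namespace FA

variable {G Ω : Type*} [Group G] [MulAction G Ω] [Finite Ω] {K : Subgroup G} {F : Set Ω}

omit [Finite Ω] in
theorem inter_eq (F : Set Ω) (a b : G) :
    (a • F ∩ b • F).ncard = (F ∩ (a⁻¹ * b) • F).ncard := by
  rw [← ncard_smul a⁻¹, Set.smul_set_inter, inv_smul_smul, smul_smul]

/-- a block meeting `F` minimally does not contain the part of `F` outside another block -/
theorem minInt (hB : Blk K F) {g0 : G} (h0 : ∀ g : G, (F ∩ g0 • F).ncard ≤ (F ∩ g • F).ncard)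
    {g : G} (hg : g • F ≠ F) (hs : F \ g • F ⊆ g0 • F) : False := by
  obtain ⟨d, d1, d2⟩ : ∃ d ∈ F, d ∉ g • F := by
    by_contra hc
    push Not at hc
    exact hg (Set.eq_of_subset_of_ncard_le hc (ncard_smul g F).le).symm
  refine hB.orb g g0 d2 fun k hk => ?_
  by_contra hn
  have h1 : g0 • F ∩ (g * k * g⁻¹) • F ⊆ (g * k * g⁻¹) • ((F ∩ g0 • F) \ {d}) := by
    rintro _ ⟨hx, y, hy, rfl⟩
    refine smul_mem.2 ⟨⟨hy, ?_⟩, fun e => hn ?_⟩
    · by_cases c : y ∈ g • F
      · have := hB.fix_conj hk c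
        simp only [this] at hx
        exact hx
      · exact hs ⟨hy, c⟩
    · rw [Set.mem_singleton_iff] at e
      rw [← e]; exact hx
  have h2 := Set.ncard_le_ncard h1
  rw [ncard_smul, inter_eq] at h2
  have h3 := Set.ncard_sdiff_singleton_add_one (s := F ∩ g0 • F) (a := d) ⟨d1, hs ⟨d1, d2⟩⟩
  have := h0 (g0⁻¹ * (g * k * g⁻¹))
  omega

end FA

theorem four_a {G Ω : Type*} [Group G] [Finite G] [MulAction G Ω] [Finite Ω] {K : Subgroup G}
    {F : Set Ω} (hB : Blk K F) (h4 : Tk (⊤ : Subgroup G) (Set.univ : Set Ω) 4)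
    (hn : Nat.card Ω = 2 * F.ncard) (hf : 2 ≤ F.ncard) :
    ∃ (g₁ : G) (u : ℕ), g₁ • F ≠ F ∧ (F ∩ g₁ • F).ncard + u = F.ncard ∧
      (∀ g : G, g • F ≠ F → (F ∩ g • F).ncard + u ≤ F.ncard) ∧ 5 ≤ u ∧ 2 * u < F.ncard ∧
      (∀ y ∉ F, 5 ≤ {z | ∃ k ∈ K, k • y = z}.ncard) ∧
      ¬ Hom (⊤ : Subgroup G) (Set.univ : Set Ω) ∧ ¬ Hom (MulAction.stabilizer G F) F := by
  have hu : (Set.univ : Set Ω).ncard = 2 * F.ncard := by rw [Set.ncard_univ, hn]
  have hc : Fᶜ.ncard = F.ncard := by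
    have := Set.ncard_add_ncard_compl F
    omega
  have hne : F.Nonempty := Set.nonempty_of_ncard_ne_zero (by omega)
  have noM : ∀ g : G, ¬ g • F ⊆ Fᶜ := fun g h =>
    hB.ne_compl hne g (Set.eq_of_subset_of_ncard_le h (by rw [ncard_smul, hc]))
  have h4n : 4 ≤ (Set.univ : Set Ω).ncard := by omega
  have f5 : 5 ≤ F.ncard := by
    by_contra h
    obtain ⟨g, -, hg⟩ := h4.move h4n (Set.subset_univ F) (Set.subset_univ Fᶜ) (Set.toFinite _)
      hc.ge (by omega)
    exact noM g hg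
  have tr : Tr (⊤ : Subgroup G) (Set.univ : Set Ω) := by
    refine ⟨fun _ _ _ _ => trivial, fun x _ y _ => ?_⟩
    simpa using h4.mono h4n (j := 1) (by norm_num) [x] [y] rfl rfl (by simp) (by simp) (by simp)
      (by simp)
  obtain ⟨g', -, hg'⟩ := tr.exists_lt (Set.toFinite _) (Set.subset_univ F) (Set.subset_univ F)
    (by rw [Set.inter_self, hu]; nlinarith)
  obtain ⟨g0, h0⟩ := Finite.exists_min fun g : G => (F ∩ g • F).ncard
  have x0 : 2 * (F ∩ g0 • F).ncard < F.ncard := by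
    have := h0 g'
    rw [hu] at hg'
    have h2 : 2 * (F ∩ g' • F).ncard < F.ncard := by
      by_contra h
      push Not at h
      nlinarith
    omega
  have g0n : g0 • F ≠ F := fun e => by rw [e, Set.inter_self] at x0; omega
  obtain ⟨g1, g1n, h1⟩ := Set.exists_max_image {g : G | g • F ≠ F} (fun g => (F ∩ g • F).ncard)
    (Set.toFinite _) ⟨g0, g0n⟩
  have eu := Set.ncard_inter_add_ncard_sdiff_eq_ncard F (g1 • F)
  have ux : (F \ g1 • F).ncard ≤ (F ∩ g0 • F).ncard := by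
    obtain ⟨k, hk, kn⟩ : ∃ k ∈ K, k • g0 • F ≠ g0 • F := by
      by_contra h
      push Not at h
      exact g0n (hB.eq_of_norm g0 h)
    have a1 := h1 (g0⁻¹ * (k * g0)) fun e => kn (by
      rw [mul_smul, inv_smul_eq_iff, mul_smul] at e; exact e)
    rw [← FA.inter_eq] at a1
    have a2 : g0 • F ∪ (k * g0) • F ⊆ (F ∩ g0 • F) ∪ Fᶜ := by
      rintro x hx
      by_cases c : x ∈ F
      · refine Or.inl ⟨c, hx.elim id fun hx => ?_⟩
        rw [mul_smul, mem_smul, hB.fix (inv_mem hk) c] at hx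
        exact hx
      · exact Or.inr c
    have a3 := (Set.ncard_le_ncard a2).trans (Set.ncard_union_le _ _)
    have a4 := Set.ncard_inter_add_ncard_union (g0 • F) ((k * g0) • F)
    rw [ncard_smul, ncard_smul] at a4
    omega
  have noN : ∀ n ∈ MulAction.stabilizer G F, ¬ n • (F \ g1 • F) ⊆ F ∩ g0 • F := fun n hn h => by
    rw [MulAction.mem_stabilizer_iff] at hn
    refine FA.minInt hB h0 (g := n * g1) (fun e => g1n ?_) ?_
    · rw [mul_smul] at e
      exact smul_left_cancel n (e.trans hn.symm)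
    · rw [Set.smul_set_sdiff, hn, smul_smul] at h
      exact h.trans Set.inter_subset_right
  have u5 : 5 ≤ (F \ g1 • F).ncard := by
    by_contra h
    obtain ⟨n, hn, hs⟩ := (hB.tk h4).move (by omega) Set.sdiff_subset Set.inter_subset_left
      (Set.toFinite _) ux (by omega)
    exact noN n hn hs
  refine ⟨g1, (F \ g1 • F).ncard, g1n, eu, fun g hg => ?_, u5, by omega, fun y hy => ?_,
    fun h => ?_, fun h => ?_⟩
  · have := h1 g hg
    omega
  · by_contra h
    obtain ⟨g, -, hg⟩ := h4.move h4n (Set.subset_univ {z | ∃ k ∈ K, k • y = z}) (Set.subset_univ F)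
      (Set.toFinite _) (by omega) (by omega)
    refine hB.orb 1 g⁻¹ (d := y) (by simpa using hy) fun k hk => mem_smul.2 ?_
    rw [inv_inv]
    exact hg (smul_mem.2 ⟨k, hk, by simp⟩)
  · obtain ⟨g, -, hg⟩ := h F Fᶜ (Set.subset_univ _) (Set.subset_univ _) hc.ge (by omega)
    exact noM g hg
  · obtain ⟨n, hn, hs⟩ := h _ _ Set.sdiff_subset Set.inter_subset_left ux (by omega)
    exact noN n hn hs

end H63.Pnm
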