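import Cfsg.Agent.Lib.Pnm.Defs

namespace H63.Pnm
open Pointwise

namespace FB

variable {G Ω : Type*} [Group G] [MulAction G Ω] [Finite Ω] {K : Subgroup G} {F : Set Ω}

theorem card_diff {g₁ : G} {u : ℕ} (h2 : (F ∩ g₁ • F).ncard + u = F.ncard) :
    (g₁ • F \ F).ncard = u := by
  have := Set.ncard_inter_add_ncard_sdiff_eq_ncard (g₁ • F) F
  rw [ncard_smul, Set.inter_comm] at this
  omega

theorem card_compl (hn : Nat.card Ω = 2 * F.ncard) : Fᶜ.ncard = F.ncard := by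
  have := Set.ncard_add_ncard_compl F
  omega

theorem key (hB : Blk K F) {g₁ : G} {u : ℕ} (h2 : (F ∩ g₁ • F).ncard + u = F.ncard)
    (h3 : ∀ g : G, g • F ≠ F → (F ∩ g • F).ncard + u ≤ F.ncard) {k : G} (hk : k ∈ K) {a : Ω}
    (ha : a ∈ g₁ • F \ F) (ha' : k • a ∈ g₁ • F) : k • g₁ • F = g₁ • F := by
  by_contra h
  have h4 := h3 (g₁⁻¹ * k * g₁) fun h5 => h (by
    rw [mul_smul, mul_smul, inv_smul_eq_iff] at h5; exact h5)
  rw [← ncard_smul g₁, Set.smul_set_inter, mul_smul, mul_smul, smul_inv_smul] at h4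
  have h5 : insert (k • a) (F ∩ g₁ • F) ⊆ g₁ • F ∩ k • g₁ • F := by
    rintro x (rfl | hx)
    · exact ⟨ha', smul_mem.2 ha.1⟩
    · refine ⟨hx.2, ?_⟩
      rw [← hB.fix hk hx.1]
      exact smul_mem.2 hx.2
  have h6 := Set.ncard_le_ncard h5
  rw [Set.ncard_insert_of_notMem fun h7 => ha.2 ((hB.smul_mem_iff hk).1 h7.1)] at h6
  omega

end FB

theorem four_b {G Ω : Type*} [Group G] [Finite G] [MulAction G Ω] [Finite Ω] {K : Subgroup G}
    {F : Set Ω} (hB : Blk K F) (hn : Nat.card Ω = 2 * F.ncard) {g₁ : G} {u : ℕ}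
    (h1 : g₁ • F ≠ F) (h2 : (F ∩ g₁ • F).ncard + u = F.ncard)
    (h3 : ∀ g : G, g • F ≠ F → (F ∩ g • F).ncard + u ≤ F.ncard) (hu : 5 ≤ u)
    (hf : 2 * u < F.ncard) (hK : ∀ y ∉ F, 5 ≤ {z | ∃ k ∈ K, k • y = z}.ncard) :
    2 * u + 5 ≤ F.ncard ∧ 5 ≤ Nat.card K ∧
      ((∀ g : G, g ≠ 1 → {x : Ω | g • x = x}.ncard ≤ F.ncard + 2) →
        (∀ g : G, g • F = F → 2 * {x ∈ F | g • x ≠ x}.ncard + 4 < F.ncard → g ∈ K) →
        5 * u ≤ F.ncard) := by
  have hU := FB.card_diff h2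
  have hS := FB.card_compl hn
  set U := g₁ • F \ F with hUd
  have hkU : ∀ k ∈ K, k • U ⊆ Fᶜ := by
    rintro k hk _ ⟨a, ha, rfl⟩ h
    exact ha.2 ((hB.smul_mem_iff hk).1 h)
  have heq : ∀ k ∈ K, ∀ k' ∈ K, ¬ Disjoint (k • U) (k' • U) → (k'⁻¹ * k) • g₁ • F = g₁ • F := by
    intro k hk k' hk' h
    obtain ⟨_, ⟨a, ha, rfl⟩, ha'⟩ := Set.not_disjoint_iff.1 h
    refine FB.key hB h2 h3 (mul_mem (inv_mem hk') hk) ha ?_
    rw [mul_smul]
    exact (mem_smul.1 ha').1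
  have heq' : ∀ k ∈ K, ∀ k' ∈ K, ¬ Disjoint (k • U) (k' • U) → k • U = k' • U := by
    intro k hk k' hk' h
    rw [← inv_smul_eq_iff, ← mul_smul, hUd, Set.smul_set_sdiff, heq k hk k' hk' h,
      hB.smul_eq (mul_mem (inv_mem hk') hk)]
  obtain ⟨k₀, hk₀, h0⟩ : ∃ k ∈ K, k • g₁ • F ≠ g₁ • F := by
    by_contra h
    push Not at h
    exact h1 (hB.eq_of_norm g₁ h)
  have hd : Disjoint (k₀ • U) ((1 : G) • U) := by
    by_contra h
    exact h0 (by simpa using heq k₀ hk₀ 1 (one_mem K) h)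
  have hW : (k₀ • U ∪ (1 : G) • U).ncard = 2 * u := by
    rw [Set.ncard_union_eq hd, ncard_smul, ncard_smul, hU, two_mul]
  have hWS : k₀ • U ∪ (1 : G) • U ⊆ Fᶜ := Set.union_subset (hkU _ hk₀) (hkU _ (one_mem K))
  have hD := Set.ncard_sdiff_add_ncard_of_subset hWS
  rw [hW, hS] at hD
  have p1 : 2 * u + 5 ≤ F.ncard := by
    by_cases h : ∀ k ∈ K, k • U ⊆ k₀ • U ∪ (1 : G) • U
    · obtain ⟨y, hy⟩ : (Fᶜ \ (k₀ • U ∪ (1 : G) • U)).Nonempty :=
        Set.nonempty_of_ncard_ne_zero (by omega)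
      have h4 : {z | ∃ k ∈ K, k • y = z} ⊆ Fᶜ \ (k₀ • U ∪ (1 : G) • U) := by
        rintro _ ⟨k, hk, rfl⟩
        refine ⟨fun h5 => hy.1 ((hB.smul_mem_iff hk).1 h5), fun h5 => hy.2 ?_⟩
        rcases h5 with h5 | h5
        · refine h _ (mul_mem (inv_mem hk) hk₀) ?_
          rw [mul_smul, mem_smul, inv_inv]
          exact h5
        · refine h _ (mul_mem (inv_mem hk) (one_mem K)) ?_
          rw [mul_smul, mem_smul, inv_inv]
          exact h5
      have := (hK y hy.1).trans (Set.ncard_le_ncard h4)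
      omega
    · push Not at h
      obtain ⟨k, hk, h⟩ := h
      have h4 : k • U ⊆ Fᶜ \ (k₀ • U ∪ (1 : G) • U) := by
        refine Set.subset_sdiff.2 ⟨hkU k hk, Set.disjoint_union_right.2 ⟨?_, ?_⟩⟩
        · by_contra h5
          exact h (heq' k hk k₀ hk₀ h5 ▸ Set.subset_union_left)
        · by_contra h5
          exact h (heq' k hk 1 (one_mem K) h5 ▸ Set.subset_union_right)
      have := Set.ncard_le_ncard h4
      rw [ncard_smul] at this
      omega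
  have p2 : 5 ≤ Nat.card K := by
    obtain ⟨y, hy⟩ : Fᶜ.Nonempty := Set.nonempty_of_ncard_ne_zero (by omega)
    refine (hK y hy).trans ?_
    rw [show {z | ∃ k ∈ K, k • y = z} = Set.range fun k : K => (k : G) • y by ext; simp,
      ← Nat.card_coe_set_eq]
    exact Finite.card_range_le _
  refine ⟨p1, p2, fun hG hN => ?_⟩
  have h4 : ∀ k ∈ K, k • g₁ • F = g₁ • F → k = 1 := by
    intro k hk h
    have h5 : {x ∈ F | (g₁⁻¹ * k * g₁) • x ≠ x} ⊆ g₁⁻¹ • U := by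
      intro x hx
      rw [mem_smul, inv_inv]
      refine ⟨smul_mem.2 hx.1, fun h6 => hx.2 ?_⟩
      rw [mul_smul, mul_smul, hB.fix hk h6, inv_smul_smul]
    have h6 := Set.ncard_le_ncard h5
    rw [ncard_smul, hU] at h6
    have h7 := hN (g₁⁻¹ * k * g₁) (by rw [mul_smul, mul_smul, h, inv_smul_smul]) (by omega)
    by_contra h8
    have h9 : F ∪ U ⊆ {x : Ω | k • x = x} := by
      rintro x (hx | hx)
      · exact hB.fix hk hx
      · have := hB.fix_conj h7 hx.1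
        rwa [show g₁ * (g₁⁻¹ * k * g₁) * g₁⁻¹ = k by group] at this
    have h10 := (Set.ncard_le_ncard h9).trans (hG k h8)
    rw [Set.ncard_union_eq Set.disjoint_sdiff_right, hU] at h10
    omega
  have h5 : Nat.card (K × U) ≤ Nat.card (Fᶜ : Set Ω) := by
    refine Nat.card_le_card_of_injective
      (fun x => ⟨(x.1 : G) • (x.2 : Ω), hkU _ x.1.2 (smul_mem.2 x.2.2)⟩) ?_
    rintro ⟨k, a⟩ ⟨k', a'⟩ h
    have h' : (k : G) • (a : Ω) = (k' : G) • (a' : Ω) := congrArg Subtype.val h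
    have h6 := h4 _ (mul_mem (inv_mem k'.2) k.2) (heq k k.2 k' k'.2 (Set.not_disjoint_iff.2
      ⟨_, smul_mem.2 a.2, h' ▸ smul_mem.2 a'.2⟩))
    obtain rfl : k' = k := Subtype.ext (inv_mul_eq_one.1 h6)
    exact Prod.ext rfl (Subtype.ext (smul_left_cancel _ h'))
  rw [Nat.card_prod, Nat.card_coe_set_eq, Nat.card_coe_set_eq, hU, hS] at h5
  exact (Nat.mul_le_mul_right u p2).trans h5

end H63.Pnm
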