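import Cfsg.Agent.Lib.Pnm.ALL

/-! Pronormal subgroups (S3399): the reduction steps. -/

namespace H63.Pnm
open Pointwise

section
variable {G Ω : Type*} [Group G] [MulAction G Ω]

/-- pronormality -/
def Pr (K : Subgroup G) : Prop :=
  ∀ (g : G) (H : Subgroup G), K ≤ H → (∀ k ∈ K, g * k * g⁻¹ ∈ H) →
    ∃ w ∈ H, ∀ k, k ∈ K ↔ w⁻¹ * g * k * (w⁻¹ * g)⁻¹ ∈ K

theorem eqns_Pr (K : Subgroup G) : Pr K = Pr K := (Pr.eq_1 K).trans (Pr.eq_1 K).symm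

theorem Pr.blk {K : Subgroup G} (h : Pr K) {F : Set Ω} (hF : ∀ x, x ∈ F ↔ ∀ k ∈ K, k • x = x) :
    Blk K F := by
  refine ⟨hF, fun g H h1 h2 => ?_⟩
  obtain ⟨w, hw, e⟩ := h g H h1 h2
  refine ⟨w, hw, ?_⟩
  have : (w⁻¹ * g) • F = F := by
    ext x
    rw [mem_smul, hF, hF]
    constructor
    · intro hx k hk
      have h3 : (w⁻¹ * g)⁻¹ * k * (w⁻¹ * g) ∈ K := by
        rw [e]; convert hk using 1; group
      have := hx _ h3
      rw [mul_smul, mul_smul, smul_inv_smul] at this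
      exact smul_left_cancel _ this
    · intro hx k hk
      have := hx _ ((e k).1 hk)
      rw [mul_smul, mul_smul, ← eq_inv_smul_iff] at this
      exact this
  rw [← smul_inv_smul w (g • F), smul_smul w⁻¹, this]

theorem Pr.subgroupOf {K H : Subgroup G} (h : Pr K) (hK : K ≤ H) : Pr (K.subgroupOf H) := by
  intro g L h1 h2
  obtain ⟨w, ⟨w', hw', rfl⟩, e⟩ := h g (L.map H.subtype)
    (fun k hk => ⟨⟨k, hK hk⟩, h1 hk, rfl⟩) (fun k hk => ⟨_, h2 ⟨k, hK hk⟩ hk, rfl⟩)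
  exact ⟨w', hw', fun k => e k⟩

theorem Pr.map {G' : Type*} [Group G'] {K : Subgroup G} (h : Pr K) (f : G →* G')
    (hf : Function.Surjective f) : Pr (K.map f) := by
  intro g L h1 h2
  obtain ⟨g, rfl⟩ := hf g
  obtain ⟨w, hw, e⟩ := h g (L.comap f) (fun k hk => h1 ⟨k, hk, rfl⟩)
    (fun k hk => by simpa using h2 _ ⟨k, hk, rfl⟩)
  refine ⟨f w, hw, fun k => ⟨?_, ?_⟩⟩
  · rintro ⟨k, hk, rfl⟩
    exact ⟨_, (e k).1 hk, by simp⟩
  · rintro ⟨k', hk', e'⟩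
    refine ⟨(w⁻¹ * g)⁻¹ * k' * (w⁻¹ * g), (e _).2 (by
      rw [show w⁻¹ * g * ((w⁻¹ * g)⁻¹ * k' * (w⁻¹ * g)) * (w⁻¹ * g)⁻¹ = k' by group]; exact hk'), ?_⟩
    simp only [map_mul, map_inv, e']
    group

theorem Tr.tk1 {H : Subgroup G} {O : Set Ω} (h : Tr H O) : Tk H O 1 := by
  intro l l' h1 h2 _ _ h5 h6
  obtain ⟨x, rfl⟩ := List.length_eq_one_iff.1 h1
  obtain ⟨y, rfl⟩ := List.length_eq_one_iff.1 h2
  simpa using h.2 x (h5 x (by simp)) y (h6 y (by simp))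

theorem Tk.succ {H : Subgroup G} {O : Set Ω} (h : Tr H O) {α : Ω} (hα : α ∈ O) {k : ℕ}
    (hk : Tk (H ⊓ MulAction.stabilizer G α) (O \ {α}) k) : Tk H O (k + 1) := by
  intro l l' h1 h2 h3 h4 h5 h6
  obtain ⟨x, l, rfl⟩ := List.exists_cons_of_length_eq_add_one h1
  obtain ⟨y, l', rfl⟩ := List.exists_cons_of_length_eq_add_one h2
  obtain ⟨s, hs, es⟩ := h.2 x (h5 x (by simp)) α hα
  obtain ⟨t, ht, et⟩ := h.2 y (h6 y (by simp)) α hα
  have aux : ∀ (z : Ω) (m : List Ω) (r : G), r ∈ H → r • z = α → (z :: m).Nodup →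
      (∀ v ∈ z :: m, v ∈ O) → ∀ v ∈ m.map (fun x => r • x), v ∈ O \ {α} := by
    intro z m r hr er hn hm v hv
    obtain ⟨v', hv', rfl⟩ := List.mem_map.1 hv
    refine ⟨h.1 r hr v' (hm v' (by simp [hv'])), fun e => ?_⟩
    have : v' = z := smul_left_cancel r (e.trans er.symm)
    exact (List.nodup_cons.1 hn).1 (this ▸ hv')
  obtain ⟨g, hg, e⟩ := hk (l.map fun x => s • x) (l'.map fun x => t • x) (by simpa using h1)
    (by simpa using h2) ((List.nodup_cons.1 h3).2.map (MulAction.injective s))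
    ((List.nodup_cons.1 h4).2.map (MulAction.injective t)) (aux x l s hs es h3 h5)
    (aux y l' t ht et h4 h6)
  refine ⟨t⁻¹ * g * s, H.mul_mem (H.mul_mem (H.inv_mem ht) hg.1) hs, ?_⟩
  have hg2 : g • α = α := hg.2
  rw [List.map_cons, mul_smul, mul_smul, es, hg2, ← et, inv_smul_smul]
  congr 1
  have := congrArg (List.map fun x => t⁻¹ • x) e
  simpa [List.map_map, Function.comp_def, mul_smul] using this

/-- blocks through `x` pass through `y`: then also conversely -/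
theorem Tr.conv [Finite G] {H : Subgroup G} {O F : Set Ω} (hT : Tr H O) {x y : Ω} (hx : x ∈ O)
    (hy : y ∈ O) (h : ∀ g ∈ H, x ∈ g • F → y ∈ g • F) : ∀ g ∈ H, y ∈ g • F → x ∈ g • F := by
  obtain ⟨s, hs, es⟩ := hT.2 x hx y hy
  have h1 : {g : G | g ∈ H ∧ x ∈ g • F} ⊆ {g : G | g ∈ H ∧ y ∈ g • F} :=
    fun g hg => ⟨hg.1, h g hg.1 hg.2⟩
  have h2 : {g : G | g ∈ H ∧ y ∈ g • F} = (fun g => s * g) '' {g : G | g ∈ H ∧ x ∈ g • F} := by
    ext g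
    constructor
    · rintro ⟨hg, hy'⟩
      refine ⟨s⁻¹ * g, ⟨H.mul_mem (H.inv_mem hs) hg, ?_⟩, by simp⟩
      rw [mul_smul, mem_smul, inv_inv, es]; exact hy'
    · rintro ⟨g, ⟨hg, hx'⟩, rfl⟩
      refine ⟨H.mul_mem hs hg, ?_⟩
      rw [mul_smul, ← es, smul_mem]; exact hx'
  have h3 := Set.eq_of_subset_of_ncard_le h1 (by
    rw [h2, Set.ncard_image_of_injective _ (mul_right_injective s)]) (Set.toFinite _)
  intro g hg hy'
  have : g ∈ {g : G | g ∈ H ∧ x ∈ g • F} := by rw [h3]; exact ⟨hg, hy'⟩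
  exact this.2

/-- orbits -/
theorem tr_orbit (H : Subgroup G) (x : Ω) : Tr H {y | ∃ h ∈ H, h • x = y} := by
  constructor
  · rintro h hh _ ⟨g, hg, rfl⟩
    exact ⟨h * g, H.mul_mem hh hg, mul_smul _ _ _⟩
  · rintro _ ⟨a, ha, rfl⟩ _ ⟨b, hb, rfl⟩
    exact ⟨b * a⁻¹, H.mul_mem hb (H.inv_mem ha), by simp [mul_smul]⟩

theorem ncard_split {P D F : Set Ω} (hP : P.Finite) (hD : D ⊆ P) :
    P.ncard = D.ncard + (P \ D).ncard ∧ (P ∩ F).ncard = (D ∩ F).ncard + ((P \ D) ∩ F).ncard := by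
  constructor
  · rw [add_comm, Set.ncard_sdiff_add_ncard_of_subset hD hP]
  · rw [← Set.ncard_union_eq (Set.disjoint_left.2 fun x h1 h2 => h2.1.2 h1.1)
      ((hP.subset hD).subset Set.inter_subset_left)
      (hP.subset fun x hx => hx.1.1), ← Set.union_inter_distrib_right, Set.union_sdiff_cancel hD]

theorem inv_diff {H : Subgroup G} {P D : Set Ω} (hP : ∀ h ∈ H, ∀ x ∈ P, h • x ∈ P)
    (hD : ∀ h ∈ H, ∀ x ∈ D, h • x ∈ D) : ∀ h ∈ H, ∀ x ∈ P \ D, h • x ∈ P \ D :=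
  fun h hh x hx => ⟨hP h hh x hx.1, fun e => hx.2 (by simpa using hD _ (H.inv_mem hh) _ e)⟩

/-- the defect of an invariant set all of whose orbits have positive defect -/
theorem inv_defect {H : Subgroup G} {F : Set Ω} : ∀ (n : ℕ) (P : Set Ω), P.ncard = n → P.Finite →
    (∀ h ∈ H, ∀ x ∈ P, h • x ∈ P) →
    (∀ x ∈ P, 2 * ({y | ∃ h ∈ H, h • x = y} ∩ F).ncard + 1 ≤ {y | ∃ h ∈ H, h • x = y}.ncard) →
    P.Nonempty → 2 * (P ∩ F).ncard + 1 ≤ P.ncard := by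
  intro n
  induction n using Nat.strong_induction_on with
  | _ n ih =>
    rintro P hn hP hinv horb ⟨x, hx⟩
    have hD : {y | ∃ h ∈ H, h • x = y} ⊆ P := by
      rintro _ ⟨h, hh, rfl⟩; exact hinv h hh x hx
    obtain ⟨e1, e2⟩ := ncard_split (F := F) hP hD
    have h1 := horb x hx
    rcases (P \ {y | ∃ h ∈ H, h • x = y}).eq_empty_or_nonempty with h0 | h0
    · rw [h0] at e1 e2
      simp only [Set.ncard_empty, Set.empty_inter] at e1 e2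
      omega
    · have := ih _ (by omega) _ rfl (hP.subset Set.sdiff_subset)
        (inv_diff hinv (tr_orbit H x).1) (fun z hz => horb z hz.1) h0
      omega

end

/-- the statement proved by induction -/
def SF (n : ℕ) : Prop :=
  ∀ (G Ω : Type) [Group G] [Finite G] [MulAction G Ω] (K H : Subgroup G) (O F : Set Ω), Pr K →
    (∀ x, x ∈ F ↔ ∀ k ∈ K, k • x = x) → K ≤ H → Tr H O → O.Finite → O.ncard = n → ¬ O ⊆ F →
    2 * (O ∩ F).ncard + 1 ≤ n ∧ (2 * (O ∩ F).ncard + 1 = n → 3 ≤ n ∧ Tk H O 2)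

theorem eqns_SF (n : ℕ) : SF n = SF n := (SF.eq_1 n).trans (SF.eq_1 n).symm

variable {G Ω : Type} [Group G] [Finite G] [MulAction G Ω] {K H : Subgroup G} {O F : Set Ω}

/-- the quotient step -/
theorem quot (ih : ∀ m < O.ncard, SF m) (hP : Pr K) (hF : ∀ x, x ∈ F ↔ ∀ k ∈ K, k • x = x)
    (hK : K ≤ H) (hT : Tr H O) (hO : O.Finite) (hne : ¬ O ⊆ F) {α : Ω} (hα : α ∈ O)
    (hαF : α ∈ F) (h2 : 2 ≤ {y ∈ O | ∀ h ∈ H, α ∈ h • F ↔ y ∈ h • F}.ncard) :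
    2 * (O ∩ F).ncard + {y ∈ O | ∀ h ∈ H, α ∈ h • F ↔ y ∈ h • F}.ncard ≤ O.ncard := by
  have hB := hP.blk hF
  let c : Ω → Set Ω := fun x => {y ∈ O | ∀ h ∈ H, x ∈ h • F ↔ y ∈ h • F}
  have c1 : ∀ h ∈ H, ∀ x, h • c x = c (h • x) := by
    intro h hh x
    ext y
    rw [mem_smul]
    constructor
    · rintro ⟨h1, h2⟩
      refine ⟨by simpa using hT.1 h hh _ h1, fun g hg => ?_⟩
      have := h2 (h⁻¹ * g) (H.mul_mem (H.inv_mem hh) hg)
      rwa [mul_smul, smul_mem, mem_smul, inv_inv] at this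
    · rintro ⟨h1, h2⟩
      refine ⟨hT.1 _ (H.inv_mem hh) _ h1, fun g hg => ?_⟩
      have := h2 (h * g) (H.mul_mem hh hg)
      rwa [mul_smul, smul_mem, mem_smul (g := h)] at this
  have c2 : ∀ x ∈ O, x ∈ c x := fun x hx => ⟨hx, fun _ _ => Iff.rfl⟩
  have c3 : ∀ x y, y ∈ c x → c x = c y := by
    intro x y hy
    ext z
    exact ⟨fun hz => ⟨hz.1, fun h hh => (hy.2 h hh).symm.trans (hz.2 h hh)⟩,
      fun hz => ⟨hz.1, fun h hh => (hy.2 h hh).trans (hz.2 h hh)⟩⟩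
  have c4 : ∀ x y, y ∈ c x → (x ∈ F ↔ y ∈ F) := fun x y hy => by simpa using hy.2 1 H.one_mem
  have c5 : ∀ x ∈ O, (c x).ncard = (c α).ncard := by
    intro x hx
    obtain ⟨h, hh, rfl⟩ := hT.2 α hα x hx
    rw [← c1 h hh, ncard_smul]
  change 2 * (O ∩ F).ncard + (c α).ncard ≤ O.ncard
  change 2 ≤ (c α).ncard at h2
  have hT' : Tr H (c '' O) := by
    constructor
    · rintro h hh _ ⟨x, hx, rfl⟩
      exact ⟨_, hT.1 h hh x hx, (c1 h hh x).symm⟩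
    · rintro _ ⟨x, hx, rfl⟩ _ ⟨y, hy, rfl⟩
      obtain ⟨h, hh, rfl⟩ := hT.2 x hx y hy
      exact ⟨h, hh, c1 h hh x⟩
  have cnt : ∀ P ⊆ O, (∀ x ∈ P, c x ⊆ P) → P.ncard * 1 = (c '' P).ncard * (c α).ncard := by
    intro P hPO hPc
    refine dcount_eq (hO.subset hPO) ((hO.subset hPO).image c) (fun x C => x ∈ C)
      (fun x hx => ?_) ?_
    · rw [Set.ncard_eq_one]
      refine ⟨c x, ?_⟩
      ext C
      constructor
      · rintro ⟨⟨y, -, rfl⟩, hy⟩; exact c3 y x hy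
      · rintro rfl; exact ⟨⟨x, hx, rfl⟩, c2 x (hPO hx)⟩
    · rintro _ ⟨x, hx, rfl⟩
      rw [← c5 x (hPO hx)]
      congr 1
      ext y
      exact ⟨fun h => h.2, fun h => ⟨hPc x hx h, h⟩⟩
  have e1 := cnt O le_rfl fun x _ y hy => hy.1
  have e2 := cnt (O ∩ F) Set.inter_subset_left fun x hx y hy => ⟨hy.1, (c4 x y hy).1 hx.2⟩
  have hne' : ¬ c '' O ⊆ {C : Set Ω | ∀ k ∈ K, k • C = C} := by
    intro hsub
    obtain ⟨x, hx, hxF⟩ := Set.not_subset.1 hne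
    obtain ⟨h, hh, e⟩ := hT.2 α hα x hx
    obtain ⟨w, hw, ew⟩ := hB.2 h (MulAction.stabilizer G (c x))
      (fun k hk => hsub ⟨x, hx, rfl⟩ k hk) (fun k hk => by
        rw [MulAction.mem_stabilizer_iff, mul_smul, mul_smul, c1 _ (H.inv_mem hh),
          hsub ⟨_, hT.1 _ (H.inv_mem hh) x hx, rfl⟩ k hk, c1 h hh, smul_inv_smul])
    have h3 : x ∈ w • F := by rw [ew, ← e, smul_mem]; exact hαF
    have h4 : x ∈ w • c x := by rw [MulAction.mem_stabilizer_iff.1 hw]; exact c2 x hx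
    exact hxF ((c4 _ _ (mem_smul.1 h4)).2 (mem_smul.1 h3))
  have hpos : 0 < (c '' O).ncard := (Set.ncard_pos (hO.image c)).2 ⟨_, α, hα, rfl⟩
  have h5 := (ih (c '' O).ncard (by nlinarith) G (Set Ω) K H (c '' O)
    {C : Set Ω | ∀ k ∈ K, k • C = C} hP (fun _ => Iff.rfl) hK hT'
    (hO.image c) rfl hne').1
  have h6 : (c '' (O ∩ F)).ncard ≤ (c '' O ∩ {C : Set Ω | ∀ k ∈ K, k • C = C}).ncard := by
    refine Set.ncard_le_ncard ?_ ((hO.image c).subset Set.inter_subset_left)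
    rintro _ ⟨x, hx, rfl⟩
    exact ⟨⟨x, hx.1, rfl⟩, fun k hk => by rw [c1 k (hK hk), hB.fix hk hx.2]⟩
  have h7 := Nat.mul_le_mul_right (c α).ncard
    (show 2 * (c '' (O ∩ F)).ncard + 1 ≤ (c '' O).ncard by omega)
  nlinarith

/-- the alternative: a non-trivial quotient, or all suborbits have positive defect -/
theorem red (ih : ∀ m < O.ncard, SF m) (hP : Pr K) (hF : ∀ x, x ∈ F ↔ ∀ k ∈ K, k • x = x)
    (hK : K ≤ H) (hT : Tr H O) (hO : O.Finite) (hne : ¬ O ⊆ F) {α : Ω} (hα : α ∈ O)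
    (hαF : α ∈ F) :
    (2 ≤ {y ∈ O | ∀ h ∈ H, α ∈ h • F ↔ y ∈ h • F}.ncard ∧
      2 * (O ∩ F).ncard + {y ∈ O | ∀ h ∈ H, α ∈ h • F ↔ y ∈ h • F}.ncard ≤ O.ncard) ∨
    ∀ β ∈ O \ {α}, ∀ D : Set Ω, D = {y | ∃ h ∈ H ⊓ MulAction.stabilizer G α, h • β = y} →
      D ⊆ O \ {α} ∧ 2 * (D ∩ F).ncard + 1 ≤ D.ncard ∧ (2 * (D ∩ F).ncard + 1 = D.ncard →
        3 ≤ D.ncard ∧ Tk (H ⊓ MulAction.stabilizer G α) D 2) := by
  have hB := hP.blk hF
  by_cases h2 : 2 ≤ {y ∈ O | ∀ h ∈ H, α ∈ h • F ↔ y ∈ h • F}.ncard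
  · exact Or.inl ⟨h2, quot ih hP hF hK hT hO hne hα hαF h2⟩
  right
  intro β hβ D hD
  have hKα : K ≤ H ⊓ MulAction.stabilizer G α := fun k hk => ⟨hK hk, hB.fix hk hαF⟩
  have hsub : D ⊆ O \ {α} := by
    rw [hD]
    rintro _ ⟨h, hh, rfl⟩
    refine ⟨hT.1 h hh.1 β hβ.1, fun e => hβ.2 ?_⟩
    have h3 : h • α = α := hh.2
    exact smul_left_cancel h (e.trans h3.symm)
  have hlt : D.ncard < O.ncard :=
    Set.ncard_lt_ncard ⟨fun x hx => (hsub hx).1, fun h => (hsub (h hα)).2 rfl⟩ hO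
  have hDF : ¬ D ⊆ F := by
    intro hDF
    apply h2
    have h3 : ∀ g ∈ H, α ∈ g • F → β ∈ g • F := by
      intro g hg hαg
      obtain ⟨w, hw, e⟩ := hB.2 g (H ⊓ MulAction.stabilizer G α) hKα
        (fun k hk => ⟨H.mul_mem (H.mul_mem hg (hK hk)) (H.inv_mem hg), hB.fix_conj hk hαg⟩)
      rw [← e, mem_smul]
      exact hDF (hD ▸ ⟨w⁻¹, inv_mem hw, rfl⟩)
    have h4 := hT.conv hα hβ.1 h3
    rw [show 2 = ({α, β} : Set Ω).ncard from (Set.ncard_pair (Ne.symm hβ.2)).symm]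
    refine Set.ncard_le_ncard ?_ (hO.subset fun _ h => h.1)
    rintro y (rfl | rfl)
    · exact ⟨hα, fun _ _ => Iff.rfl⟩
    · exact ⟨hβ.1, fun h hh => ⟨h3 h hh, h4 h hh⟩⟩
  exact ⟨hsub, ih _ hlt G Ω K _ D F hP hF hKα (hD ▸ tr_orbit _ β)
    (hO.subset fun x hx => (hsub hx).1) rfl hDF⟩

/-- the three possible shapes when all suborbits have positive defect and the total defect is
at most `3` -/
theorem shape {α : Ω} (hB : Blk K F) (hK : K ≤ H) (hT : Tr H O) (hO : O.Finite) (hne : ¬ O ⊆ F)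
    (hα : α ∈ O) (hαF : α ∈ F)
    (hs : ∀ β ∈ O \ {α}, ∀ D : Set Ω, D = {y | ∃ h ∈ H ⊓ MulAction.stabilizer G α, h • β = y} →
      D ⊆ O \ {α} ∧ 2 * (D ∩ F).ncard + 1 ≤ D.ncard ∧ (2 * (D ∩ F).ncard + 1 = D.ncard →
        3 ≤ D.ncard ∧ Tk (H ⊓ MulAction.stabilizer G α) D 2)) :
    2 * (O ∩ F).ncard ≤ O.ncard ∧
    (O.ncard = 2 * (O ∩ F).ncard → 4 ≤ O.ncard ∧ Tk H O 3) ∧
    (O.ncard = 2 * (O ∩ F).ncard + 1 → Tk H O 2) ∧
    (O.ncard = 2 * (O ∩ F).ncard + 2 → Tr (H ⊓ MulAction.stabilizer G α) (O \ {α}) ∨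
      ∃ D E : Set Ω, D ∪ E = O \ {α} ∧ Disjoint D E ∧ Tr (H ⊓ MulAction.stabilizer G α) D ∧
        Tr (H ⊓ MulAction.stabilizer G α) E ∧ Tk (H ⊓ MulAction.stabilizer G α) D 2 ∧
        3 ≤ D.ncard ∧ D.ncard = 2 * (D ∩ F).ncard + 1 ∧ E.ncard = 2 * (E ∩ F).ncard + 2) := by
  set L := H ⊓ MulAction.stabilizer G α with hL
  set P := O \ {α} with hPdef
  have hPf : P.Finite := hO.subset Set.sdiff_subset
  have hPi : ∀ h ∈ L, ∀ x ∈ P, h • x ∈ P := fun h hh x hx => (hs x hx _ rfl).1 ⟨h, hh, rfl⟩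
  have hPn : P.Nonempty := by
    obtain ⟨x, hx, hxF⟩ := Set.not_subset.1 hne
    exact ⟨x, hx, fun e => hxF (e ▸ hαF)⟩
  obtain ⟨e1, e2⟩ := ncard_split (F := F) hO (Set.singleton_subset_iff.2 hα)
  rw [Set.ncard_singleton] at e1
  rw [Set.inter_eq_self_of_subset_left (Set.singleton_subset_iff.2 hαF), Set.ncard_singleton] at e2
  rw [← hPdef] at e1 e2
  have dft : ∀ Q ⊆ P, (∀ h ∈ L, ∀ x ∈ Q, h • x ∈ Q) → Q.Nonempty →
      2 * (Q ∩ F).ncard + 1 ≤ Q.ncard := fun Q hQ hi hn =>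
    inv_defect _ Q rfl (hPf.subset hQ) hi (fun x hx => (hs x (hQ hx) _ rfl).2.1) hn
  -- an invariant set of defect one is an orbit
  have one : ∀ Q ⊆ P, (∀ h ∈ L, ∀ x ∈ Q, h • x ∈ Q) → Q.ncard = 2 * (Q ∩ F).ncard + 1 →
      Tr L Q ∧ 3 ≤ Q.ncard ∧ Tk L Q 2 := by
    intro Q hQ hi hq
    obtain ⟨x, hx⟩ : Q.Nonempty := Set.nonempty_of_ncard_ne_zero (by omega)
    have hD : {y | ∃ h ∈ L, h • x = y} ⊆ Q := by
      rintro _ ⟨h, hh, rfl⟩; exact hi h hh x hx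
    obtain ⟨-, h1, h2⟩ := hs x (hQ hx) _ rfl
    have : {y | ∃ h ∈ L, h • x = y} = Q := by
      by_contra hc
      have := dft _ (Set.sdiff_subset.trans hQ) (inv_diff hi (tr_orbit L x).1)
        (Set.sdiff_nonempty.2 fun h => hc (Set.Subset.antisymm hD h))
      obtain ⟨e3, e4⟩ := ncard_split (F := F) (hPf.subset hQ) hD
      omega
    refine ⟨this ▸ tr_orbit L x, ?_⟩
    rw [this] at h2
    exact h2 hq.symm
  have all : (∀ β ∈ P, {y | ∃ h ∈ L, h • β = y}.ncard =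
      2 * ({y | ∃ h ∈ L, h • β = y} ∩ F).ncard + 1) →
      O.ncard = 2 * (O ∩ F).ncard ∨ 2 * (O ∩ F).ncard + 4 ≤ O.ncard := by
    intro h
    have hp := (Set.ncard_pos hPf).2 hPn
    refine all_one hB hK hO hT (by omega) hα hαF fun β hβ hne D hD => ?_
    have hD' : D = {y | ∃ h ∈ L, h • β = y} := by
      rw [hD]; ext y
      exact ⟨fun ⟨h, a, b, c⟩ => ⟨h, ⟨a, b⟩, c⟩, fun ⟨h, ⟨a, b⟩, c⟩ => ⟨h, a, b, c⟩⟩
    have h1 := h β ⟨hβ, hne⟩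
    rw [← hD'] at h1
    obtain ⟨h2, h3⟩ := (hs β ⟨hβ, hne⟩ D hD').2.2 h1.symm
    exact ⟨h2, h1, h3⟩
  have h0 := dft P le_rfl hPi hPn
  -- if `L` is not transitive on `P`, every orbit has a non-empty complement
  have cmp : ¬ Tr L P → ∀ β ∈ P, ∀ D : Set Ω, D = {y | ∃ h ∈ L, h • β = y} →
      2 * ((P \ D) ∩ F).ncard + 1 ≤ (P \ D).ncard ∧ P.ncard = D.ncard + (P \ D).ncard ∧
      (P ∩ F).ncard = (D ∩ F).ncard + ((P \ D) ∩ F).ncard ∧ 2 * (D ∩ F).ncard + 1 ≤ D.ncard := by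
    intro hn β hβ D hD
    obtain ⟨h1, h2, -⟩ := hs β hβ D hD
    obtain ⟨e3, e4⟩ := ncard_split (F := F) hPf h1
    refine ⟨dft _ Set.sdiff_subset (inv_diff hPi (hD ▸ (tr_orbit L β).1))
      (Set.sdiff_nonempty.2 fun h => hn ?_), e3, e4, h2⟩
    rw [Set.Subset.antisymm h h1, hD]; exact tr_orbit L β
  refine ⟨by omega, fun h => ?_, fun h => ?_, fun h => ?_⟩
  · obtain ⟨-, h2, h3⟩ := one P le_rfl hPi (by omega)
    exact ⟨by omega, Tk.succ hT hα h3⟩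
  · by_cases hc : Tr L P
    · exact Tk.succ hT hα hc.tk1
    · have := all fun β hβ => by
        have := cmp hc β hβ _ rfl
        omega
      omega
  · by_cases hc : Tr L P
    · exact Or.inl hc
    right
    by_cases h1 : ∀ β ∈ P, {y | ∃ h ∈ L, h • β = y}.ncard =
      2 * ({y | ∃ h ∈ L, h • β = y} ∩ F).ncard + 1
    · have := all h1
      omega
    push Not at h1
    obtain ⟨β, hβ, h1⟩ := h1
    obtain ⟨c1, c2, c3, c4⟩ := cmp hc β hβ _ rfl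
    obtain ⟨d1, d2, d3⟩ := one _ Set.sdiff_subset (inv_diff hPi (tr_orbit L β).1) (by omega)
    exact ⟨_, _, Set.sdiff_union_of_subset (hs β hβ _ rfl).1, Set.disjoint_sdiff_left, d1,
      tr_orbit L β, d3, d2, by omega, by omega⟩

end H63.Pnm
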